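import Mathlib
import Cfsg.Agent.Lib.Helper32.S9Stmt

/-! S3805 piece ARITH. -/

set_option autoImplicit false

namespace Cfsg.Agent.Lib.Helper49.S9ARITH

open Cfsg.Agent.Lib.Helper32

theorem pos_sq {a a0 : ℤ} (ha : 0 < a) (h : a = a0 ^ 2 ∨ a = -a0 ^ 2) : a = a0 ^ 2 := by
  rcases h with h | h
  · exact h
  · exfalso
    have := sq_nonneg a0
    omega

theorem main : S9Stmt.ARITH := by
  intro m z hm h hm3
  have h3 : (3 : ℤ) ∣ (m - z) := by
    have h9 : (3 : ℤ) ∣ 8 * (m - z) ^ 2 := by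
      rw [h]
      exact ⟨3 * m * (m + 1), by ring⟩
    have hp : Prime (3 : ℤ) := Int.prime_three
    have h9' : (3 : ℤ) ∣ (m - z) ^ 2 := by
      rcases hp.dvd_or_dvd h9 with h8 | h8
      · norm_num at h8
      · exact h8
    exact hp.dvd_of_dvd_pow h9'
  obtain ⟨j, hj⟩ := h3
  have hmj : m * (m + 1) = 8 * j ^ 2 := by
    rw [hj] at h
    have h1 : 9 * (m * (m + 1)) = 9 * (8 * j ^ 2) := by linear_combination -h
    exact mul_left_cancel₀ (by norm_num) h1
  rcases Int.even_or_odd' m with ⟨m1, rfl | rfl⟩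
  · -- `m = 2 * m1`
    have hprod : m1 * (2 * m1 + 1) = (2 * j) ^ 2 := by
      have h1 : 2 * (m1 * (2 * m1 + 1)) = 2 * (2 * j) ^ 2 := by linear_combination hmj
      exact mul_left_cancel₀ (by norm_num) h1
    have hcop : IsCoprime m1 (2 * m1 + 1) := ⟨-2, 1, by ring⟩
    obtain ⟨a0, ha0⟩ := Int.sq_of_isCoprime hcop hprod
    have ha1 : m1 = a0 ^ 2 := pos_sq (by omega) ha0
    rw [ha1] at hm3
    have hc : a0 % 3 = 0 ∨ a0 % 3 = 1 ∨ a0 % 3 = 2 := by omega
    rcases hc with hc | hc | hc <;> simp [pow_two, Int.mul_emod, hc] at hm3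
  · -- `m = 2 * m1 + 1`
    have hprod : (2 * m1 + 1) * (m1 + 1) = (2 * j) ^ 2 := by
      have h1 : 2 * ((2 * m1 + 1) * (m1 + 1)) = 2 * (2 * j) ^ 2 := by linear_combination hmj
      exact mul_left_cancel₀ (by norm_num) h1
    have hcop : IsCoprime (2 * m1 + 1) (m1 + 1) := ⟨-1, 2, by ring⟩
    obtain ⟨a0, ha0⟩ := Int.sq_of_isCoprime hcop hprod
    have ha1 : 2 * m1 + 1 = a0 ^ 2 := pos_sq hm ha0
    have hprod' : (m1 + 1) * (2 * m1 + 1) = (2 * j) ^ 2 := by rw [mul_comm]; exact hprod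
    obtain ⟨b0, hb0⟩ := Int.sq_of_isCoprime hcop.symm hprod'
    have hb1 : m1 + 1 = b0 ^ 2 := pos_sq (by omega) hb0
    have haodd : Odd a0 := by
      have h1 : Odd (a0 ^ 2) := by
        rw [← ha1]
        exact ⟨m1, rfl⟩
      exact (Int.odd_pow.mp h1).resolve_right (by norm_num)
    have ha4 : a0 ^ 2 % 4 = 1 := Int.sq_mod_four_eq_one_of_odd haodd
    have hbodd : Odd b0 := by
      rcases Int.even_or_odd b0 with hb | hb
      · exfalso
        obtain ⟨c, hc⟩ := hb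
        have h1 : b0 ^ 2 = 4 * c ^ 2 := by rw [hc]; ring
        generalize a0 ^ 2 = A at *
        generalize b0 ^ 2 = B at *
        generalize c ^ 2 = C at *
        omega
      · exact hb
    have hodd : Odd ((2 * m1 + 1) * (m1 + 1)) := by
      rw [ha1, hb1]
      exact (haodd.pow).mul (hbodd.pow)
    have heven : Even ((2 * m1 + 1) * (m1 + 1)) := by
      rw [hprod]
      exact ⟨2 * j ^ 2, by ring⟩
    exact (Int.not_even_iff_odd.mpr hodd) heven

end Cfsg.Agent.Lib.Helper49.S9ARITH
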