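import Mathlib
import Cfsg.Agent.Lib.Helper32.S9Stmt
import Cfsg.Agent.Lib.Helper3.Irr
import Cfsg.Agent.Lib.CT.Ops
import Cfsg.Agent.Lib.CT.Clifford

/-! S3805 piece INT2. -/

set_option autoImplicit false

namespace Cfsg.Agent.Lib.Helper49.S9INT2

open Cfsg Cfsg.Agent.Lib.CT
open Cfsg.Agent.Lib.Helper32 Cfsg.Agent.Lib.Helper3.Irr
open scoped ComplexConjugate

universe u

theorem main : S9Stmt.INT2.{u} := by
  intro G _ _ χ hχ g hg2
  classical
  obtain ⟨d, hd⟩ := IsCharacter.exists_apply_one hχ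
  by_cases hg1 : g = 1
  · subst hg1
    exact ⟨d, by rw [hd]; simp⟩
  have hord : orderOf g = 2 := orderOf_eq_prime hg2 hg1
  have hfin : IsOfFinOrder g := isOfFinOrder_of_finite g
  haveI : Fintype (Subgroup.zpowers g) := Fintype.ofFinite _
  obtain ⟨m, hm⟩ := Clifford.classInner_char_nat
    (Ops.isCharacter_restrict (Subgroup.zpowers g) hχ)
    (Ops.isCharacter_one (G := Subgroup.zpowers g))
  have hcard : Nat.card (Subgroup.zpowers g) = 2 := by rw [Nat.card_zpowers, hord]
  have hsum : ∑ k : Subgroup.zpowers g, χ k = χ 1 + χ g := by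
    have h1 := Fintype.sum_equiv ((finCongr hord.symm).trans (finEquivZPowers hfin))
      (fun i : Fin 2 => χ (g ^ (i : ℕ))) (fun k : Subgroup.zpowers g => χ k)
      (fun i => by rw [Equiv.trans_apply, finEquivZPowers_apply]; rfl)
    rw [← h1, Fin.sum_univ_two]
    simp
  have hinner : classInner (fun k : Subgroup.zpowers g => χ k) (fun _ => (1 : ℂ)) =
      (χ 1 + χ g) / 2 := by
    unfold classInner
    rw [hcard]
    simp only [map_one, mul_one]
    rw [hsum]
    push_cast
    ring
  rw [hinner, hd] at hm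
  refine ⟨2 * (m : ℤ) - d, ?_⟩
  push_cast
  field_simp at hm
  linear_combination hm

end Cfsg.Agent.Lib.Helper49.S9INT2
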