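import Mathlib
import Cfsg.Agent.Lib.Helper32.S9Stmt
import Cfsg.Agent.Lib.Helper3.Irr
import Cfsg.Agent.Lib.CT.Ops
import Cfsg.Agent.Lib.CT.Clifford
import Cfsg.Agent.Lib.Helper80.Integrality
import Cfsg.Agent.Lib.Helper78.GaloisPQ

/-! S3805 piece INT3. -/

set_option autoImplicit false

namespace Cfsg.Agent.Lib.Helper49.S9INT3

open Cfsg Cfsg.Agent.Lib.CT
open Cfsg.Agent.Lib.Helper32 Cfsg.Agent.Lib.Helper3.Irr
open scoped ComplexConjugate

universe u

theorem main : S9Stmt.INT3.{u} := by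
  intro G _ _ χ hχ g c hg3 hc
  classical
  obtain ⟨d, hd⟩ := IsCharacter.exists_apply_one hχ
  by_cases hg1 : g = 1
  · subst hg1
    exact ⟨d, d, by rw [hd]; simp, hd, by simp⟩
  have hord : orderOf g = 3 := orderOf_eq_prime hg3 hg1
  have hfin : IsOfFinOrder g := isOfFinOrder_of_finite g
  haveI : Fintype (Subgroup.zpowers g) := Fintype.ofFinite _
  obtain ⟨m, hm⟩ := Clifford.classInner_char_nat
    (Ops.isCharacter_restrict (Subgroup.zpowers g) hχ)
    (Ops.isCharacter_one (G := Subgroup.zpowers g))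
  have hcard : Nat.card (Subgroup.zpowers g) = 3 := by rw [Nat.card_zpowers, hord]
  have hsum : ∑ k : Subgroup.zpowers g, χ k = χ 1 + χ g + χ (g ^ 2) := by
    have h1 := Fintype.sum_equiv ((finCongr hord.symm).trans (finEquivZPowers hfin))
      (fun i : Fin 3 => χ (g ^ (i : ℕ))) (fun k : Subgroup.zpowers g => χ k)
      (fun i => by rw [Equiv.trans_apply, finEquivZPowers_apply]; rfl)
    rw [← h1, Fin.sum_univ_three]
    simp
  have hinner : classInner (fun k : Subgroup.zpowers g => χ k) (fun _ => (1 : ℂ)) =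
      (χ 1 + χ g + χ (g ^ 2)) / 3 := by
    unfold classInner
    rw [hcard]
    simp only [map_one, mul_one]
    rw [hsum]
    push_cast
    ring
  have hg2 : χ (g ^ 2) = χ g := by
    have h1 : g ^ 2 = c * g * c⁻¹ := by
      rw [hc]
      exact eq_inv_of_mul_eq_one_left (by rw [← pow_succ, hg3])
    rw [h1]
    exact IsCharacter.isClassFunction hχ g c
  rw [hinner, hg2, hd] at hm
  have h3 : (d : ℂ) + χ g + χ g = 3 * m := by
    field_simp at hm
    linear_combination hm
  have hχg : χ g = (((((3 * (m : ℤ) - d : ℤ)) : ℚ) / 2 : ℚ) : ℂ) := by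
    push_cast
    linear_combination h3 / 2
  have hint : IsIntegral ℤ (χ g) := Cfsg.Agent.Lib.Helper80.Integrality.isIntegral_of_isCharacter hχ g
  rw [hχg] at hint
  obtain ⟨z, hz⟩ := Cfsg.Agent.Lib.Helper78.GaloisPQ.int_of_integral_rat _ hint
  refine ⟨z, d, ?_, hd, ?_⟩
  · rw [hχg, hz]
    push_cast
    rfl
  · have h2 : (3 * (m : ℤ) - d : ℤ) = 2 * z := by
      have h4 : (((3 * (m : ℤ) - d : ℤ)) : ℚ) = 2 * z := by linear_combination 2 * hz
      exact_mod_cast h4
    omega

end Cfsg.Agent.Lib.Helper49.S9INT3
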