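import Mathlib
import Cfsg.Agent.Lib.Helper32.S9Stmt
import Cfsg.Agent.Lib.CT.ClassMult

/-! S3805 piece SCHUR3. -/

set_option autoImplicit false

namespace Cfsg.Agent.Lib.Helper49.S9SCHUR3

open Cfsg Cfsg.Agent.Lib.CT
open Cfsg.Agent.Lib.Helper32
open scoped ComplexConjugate

universe u

theorem main : S9Stmt.SCHUR3.{u} := by
  intro G _ _ θ Y' Y'' u hY' hY'' hθ
  have h1 := ClassMult.irr_schur_average hY' u u
  have h2 := ClassMult.irr_schur_average hY'' u u
  simp only [hθ]
  rw [Finset.sum_add_distrib, Finset.sum_sub_distrib, h1, h2, Finset.sum_const, Finset.card_univ,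
    Nat.card_eq_fintype_card]
  simp only [nsmul_eq_mul, mul_one]
  ring

end Cfsg.Agent.Lib.Helper49.S9SCHUR3
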