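import Mathlib
import Cfsg.Prelude.Def_SylowChains
import Cfsg.Agent.Lib.Helper49.SylowConj

set_option autoImplicit false

namespace Cfsg.Agent.Lib.Helper49.SylowChain

open Cfsg Cfsg.Agent.Lib.Helper49.SylowConj

/-- Chains indexed by `Fin (n + 1)` versus the reflexive transitive closure. -/
theorem exists_fin_chain_iff {α : Type*} (r : α → α → Prop) (a b : α) :
    (∃ (n : ℕ) (c : Fin (n + 1) → α), c 0 = a ∧ c (Fin.last n) = b ∧
      ∀ i : Fin n, r (c i.castSucc) (c i.succ)) ↔ Relation.ReflTransGen r a b := by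
  constructor
  · rintro ⟨n, c, h0, hl, hr⟩
    induction n generalizing b with
    | zero =>
      have : a = b := by
        rw [← h0, ← hl]
        rfl
      rw [this]
    | succ n ih =>
      have h1 := ih (c (Fin.last n).castSucc) (fun i => c i.castSucc) h0 rfl
        (fun i => hr i.castSucc)
      have h2 := hr (Fin.last n)
      rw [Fin.succ_last, hl] at h2
      exact h1.tail h2
  · intro h
    induction h with
    | refl => exact ⟨0, fun _ => a, rfl, rfl, fun i => i.elim0⟩
    | @tail b d _ hbd ih =>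
      obtain ⟨n, c, h0, hl, hr⟩ := ih
      refine ⟨n + 1, Fin.snoc c d, ?_, ?_, ?_⟩
      · rw [← Fin.castSucc_zero, Fin.snoc_castSucc]
        exact h0
      · rw [Fin.snoc_last]
      · intro i
        induction i using Fin.lastCases with
        | last =>
          rw [Fin.succ_last, Fin.snoc_last, Fin.snoc_castSucc, hl]
          exact hbd
        | cast j =>
          rw [← Fin.castSucc_succ, Fin.snoc_castSucc, Fin.snoc_castSucc]
          exact hr j

variable {G : Type*} [Group G]

/-- Membership in a right conjugate of a subset. -/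
theorem mem_conjRight_iff (g : G) (A : Set G) (u : G) :
    u ∈ conjRight g A ↔ g * u * g⁻¹ ∈ A := by
  constructor
  · rintro ⟨a, ha, rfl⟩
    have : g * (g⁻¹ * a * g) * g⁻¹ = a := by group
    rw [this]
    exact ha
  · intro h
    exact ⟨g * u * g⁻¹, h, by group⟩

theorem conjRight_mul (g h : G) (A : Set G) :
    conjRight (g * h) A = conjRight h (conjRight g A) := by
  ext u
  simp only [mem_conjRight_iff]
  have : g * h * u * (g * h)⁻¹ = g * (h * u * h⁻¹) * g⁻¹ := by group
  rw [this]

theorem conjRight_one (A : Set G) : conjRight (1 : G) A = A := by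
  ext u
  simp [mem_conjRight_iff]

theorem conjRight_mono (g : G) {A B : Set G} (h : A ⊆ B) : conjRight g A ⊆ conjRight g B :=
  Set.image_mono h

theorem coe_subgroupConjRight (g : G) (X : Subgroup G) :
    (subgroupConjRight g X : Set G) = conjRight g (X : Set G) := by
  ext u
  rw [mem_conjRight_iff, SetLike.mem_coe, mem_subgroupConjRight_iff, SetLike.mem_coe]

theorem subgroupConjRight_mul (g h : G) (X : Subgroup G) :
    subgroupConjRight (g * h) X = subgroupConjRight h (subgroupConjRight g X) := by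
  ext u
  simp only [mem_subgroupConjRight_iff]
  have : g * h * u * (g * h)⁻¹ = g * (h * u * h⁻¹) * g⁻¹ := by group
  rw [this]

theorem subgroupConjRight_one (X : Subgroup G) : subgroupConjRight (1 : G) X = X := by
  ext u
  simp [mem_subgroupConjRight_iff]

theorem subgroupConjRight_inf (g : G) (X Y : Subgroup G) :
    subgroupConjRight g (X ⊓ Y) = subgroupConjRight g X ⊓ subgroupConjRight g Y := by
  ext u
  simp only [mem_subgroupConjRight_iff, Subgroup.mem_inf]

theorem subgroupConjRight_of_mem {y : G} {Y : Subgroup G} (hy : y ∈ Y) :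
    subgroupConjRight y Y = Y := by
  ext u
  rw [mem_subgroupConjRight_iff]
  constructor
  · intro h
    have := Y.mul_mem (Y.mul_mem (Y.inv_mem hy) h) hy
    have h2 : y⁻¹ * (y * u * y⁻¹) * y = u := by group
    rwa [h2] at this
  · intro h
    exact Y.mul_mem (Y.mul_mem hy h) (Y.inv_mem hy)

/-- The right conjugate of a Sylow subgroup as a Sylow subgroup. -/
theorem subgroupConjRight_sylow {p : ℕ} (g : G) (S : Sylow p G) :
    subgroupConjRight g (S : Subgroup G) = ((g⁻¹ • S : Sylow p G) : Subgroup G) := by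
  rw [coe_smul_sylow, inv_inv]

/-- `S ∩ X` is (the image of) a Sylow `p`-subgroup of `X` exactly when it is a maximal
`p`-subgroup of `X`. -/
theorem exists_sylow_map_eq_iff {p : ℕ} {S X : Subgroup G}
    (hS : IsPGroup p ↥(S ⊓ X : Subgroup G)) :
    (∃ P : Sylow p ↥X, (P : Subgroup ↥X).map X.subtype = S ⊓ X) ↔
      ∀ Q : Subgroup G, IsPGroup p ↥Q → Q ≤ X → S ⊓ X ≤ Q → Q = S ⊓ X := by
  constructor
  · rintro ⟨P, hP⟩ Q hQ hQX hSQ
    have h1 : (P : Subgroup ↥X) ≤ Q.subgroupOf X := by
      intro u hu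
      rw [Subgroup.mem_subgroupOf]
      apply hSQ
      rw [← hP]
      exact ⟨u, hu, rfl⟩
    have h2 := P.is_maximal' (hQ.comap_subtype) h1
    have h3 : (Q.subgroupOf X).map X.subtype = Q := Subgroup.map_subgroupOf_eq_of_le hQX
    rw [← h3, ← hP]
    exact congrArg (fun Z => Subgroup.map X.subtype Z) h2
  · intro h
    have hp : IsPGroup p ↥((S ⊓ X).subgroupOf X) := hS.comap_subtype
    obtain ⟨P, hP⟩ := hp.exists_le_sylow
    refine ⟨P, ?_⟩
    apply h
    · exact P.isPGroup'.map _
    · exact Subgroup.map_subtype_le _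
    · intro u hu
      have hu' : u ∈ X := (Subgroup.mem_inf.mp hu).2
      exact ⟨⟨u, hu'⟩, hP (Subgroup.mem_subgroupOf.mpr hu), rfl⟩

/-- The property "`S ∩ X` is a Sylow `p`-subgroup of `X`" is invariant under automorphisms. -/
theorem sylowInter_map {p : ℕ} (φ : G ≃* G) {S X : Subgroup G}
    (hS : IsPGroup p ↥(S ⊓ X : Subgroup G))
    (h : ∃ P : Sylow p ↥X, (P : Subgroup ↥X).map X.subtype = S ⊓ X) :
    ∃ P : Sylow p ↥(X.map φ.toMonoidHom),
      (P : Subgroup ↥(X.map φ.toMonoidHom)).map (X.map φ.toMonoidHom).subtype =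
        S.map φ.toMonoidHom ⊓ X.map φ.toMonoidHom := by
  have hinf : (S ⊓ X).map φ.toMonoidHom = S.map φ.toMonoidHom ⊓ X.map φ.toMonoidHom :=
    Subgroup.map_inf _ _ _ φ.injective
  have hS' : IsPGroup p ↥(S.map φ.toMonoidHom ⊓ X.map φ.toMonoidHom : Subgroup G) := by
    rw [← hinf]
    exact hS.map _
  rw [exists_sylow_map_eq_iff hS']
  rw [exists_sylow_map_eq_iff hS] at h
  intro Q hQ hQX hSQ
  have h1 := h (Q.comap φ.toMonoidHom) (hQ.comap_of_injective _ φ.injective) (by
    intro u hu
    obtain ⟨x, hx, hxu⟩ := hQX hu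
    have := φ.injective hxu
    rw [← this]
    exact hx) (by
    intro u hu
    apply hSQ
    rw [← hinf]
    exact ⟨u, hu, rfl⟩)
  rw [← hinf, ← h1, Subgroup.map_comap_eq_self_of_surjective φ.surjective]

/-- Members of `𝓕(S)` are carried to members of `𝓕(S^g)` by conjugation. -/
theorem sylowMembers_conj {p : ℕ} {𝓕 : Set (Subgroup G)} (h𝓕 : IsNormalSet 𝓕) {S X : Subgroup G}
    (hS : IsPGroup p ↥S) (g : G) (h : X ∈ sylowMembers p 𝓕 S) :
    subgroupConjRight g X ∈ sylowMembers p 𝓕 (subgroupConjRight g S) :=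
  ⟨h𝓕 X h.1 g, sylowInter_map (MulAut.conj g⁻¹) hS.to_inf_left h.2⟩

/-- One step of a control chain: the Sylow subgroups `A`, `B` are linked by a member `X` of the
family meeting both in Sylow subgroups of `X`, with `B^x = A` for some `x ∈ X` and
`D ≤ B ∩ X`. -/
def Link (p : ℕ) (𝓕 : Set (Subgroup G)) (D : Subgroup G) (A B : Sylow p G) : Prop :=
  ∃ (X : Subgroup G) (x : G), X ∈ sylowMembers p 𝓕 (A : Subgroup G) ∧
    X ∈ sylowMembers p 𝓕 (B : Subgroup G) ∧ x ∈ X ∧
    subgroupConjRight x (B : Subgroup G) = (A : Subgroup G) ∧ D ≤ (B : Subgroup G) ⊓ X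

/-- Control of Sylow intersections in terms of the reflexive transitive closure of `Link`. -/
theorem controls_iff {p : ℕ} {𝓕 : Set (Subgroup G)} :
    ControlsSylowIntersections p 𝓕 ↔ ∀ S T : Sylow p G, S ≠ T →
      (S : Subgroup G) ⊓ (T : Subgroup G) ≠ ⊥ →
      Relation.ReflTransGen (Link p 𝓕 ((S : Subgroup G) ⊓ (T : Subgroup G))) S T := by
  constructor
  · intro h S T hne hbot
    obtain ⟨n, c, X, x, h0, hl, hi⟩ := h S T hne hbot
    rw [← exists_fin_chain_iff]
    exact ⟨n, c, h0, hl, fun i => ⟨X i, x i, hi i⟩⟩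
  · intro h S T hne hbot
    have h1 := h S T hne hbot
    rw [← exists_fin_chain_iff] at h1
    obtain ⟨n, c, h0, hl, hi⟩ := h1
    choose X x hXx using hi
    exact ⟨n, c, X, x, h0, hl, hXx⟩

/-- Chain-connectedness gives connectedness of the graph of nontrivially meeting pairs. -/
theorem chainConnected_reflTransGen {p : ℕ} (h : IsSylowChainConnected p G) (S T : Sylow p G) :
    Relation.ReflTransGen
      (fun A B : Sylow p G => A ≠ B ∧ (A : Subgroup G) ⊓ (B : Subgroup G) ≠ ⊥) S T := by
  obtain ⟨n, c, h0, hl, -, hi⟩ := h S T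
  rw [← exists_fin_chain_iff]
  exact ⟨n, c, h0, hl, hi⟩

end Cfsg.Agent.Lib.Helper49.SylowChain
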