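import Mathlib
import Cfsg.Prelude.Def_SylowChains
import Cfsg.Agent.Lib.Helper49.SylowChain

set_option autoImplicit false

namespace Cfsg.Agent.Lib.Helper49.FunctorRegular

open Cfsg Cfsg.Agent.Lib.Helper49.SylowConj Cfsg.Agent.Lib.Helper49.SylowChain

variable {G : Type*} [Group G]

/-- If `X` contains a Sylow `p`-subgroup, then `a ∩ X` is a Sylow `p`-subgroup of `X` exactly
when the Sylow `p`-subgroup `a` lies in `X`. -/
theorem sylowInter_iff_le [Finite G] {p : ℕ} [Fact p.Prime] (P a : Sylow p G) {X : Subgroup G}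
    (hPX : (P : Subgroup G) ≤ X) :
    (∃ P₁ : Sylow p ↥X, (P₁ : Subgroup ↥X).map X.subtype = (a : Subgroup G) ⊓ X) ↔
      (a : Subgroup G) ≤ X := by
  rw [exists_sylow_map_eq_iff a.isPGroup'.to_inf_left]
  constructor
  · intro h
    obtain ⟨d, hdX, hd1, hd2⟩ := exists_smul_sylow_ge P X ((a : Subgroup G) ⊓ X) hPX inf_le_right
      a.isPGroup'.to_inf_left
    have h1 := h _ (d • P : Sylow p G).isPGroup' hd2 hd1
    have h2 : ((d • P : Sylow p G) : Subgroup G) ≤ a := by
      rw [h1]
      exact inf_le_left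
    have h3 : (a : Subgroup G) = ((d • P : Sylow p G) : Subgroup G) :=
      (d • P : Sylow p G).is_maximal' a.isPGroup' h2
    rw [h3]
    exact hd2
  · intro h Q hQ hQX hle
    have h1 : (a : Subgroup G) ⊓ X = a := inf_eq_left.mpr h
    rw [h1] at hle ⊢
    exact a.is_maximal' hQ hle

/-- In a subgroup `M` containing a Sylow `p`-subgroup of `G`, the Sylow `p`-subgroups of `M` are
Sylow `p`-subgroups of `G`. -/
theorem exists_sylow_eq_map [Finite G] {p : ℕ} [Fact p.Prime] (S : Sylow p G) {M : Subgroup G}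
    (hSM : (S : Subgroup G) ≤ M) (Q : Sylow p ↥M) :
    ∃ R : Sylow p G, (R : Subgroup G) = (Q : Subgroup ↥M).map M.subtype := by
  obtain ⟨d, hd⟩ := MulAction.exists_smul_eq ↥M (S.subtype hSM) Q
  refine ⟨(d : G) • S, ?_⟩
  have h1 : (Q : Subgroup ↥M) = (((d : G) • S : Sylow p G) : Subgroup G).subgroupOf M := by
    rw [← hd, Sylow.smul_subtype hSM d, Sylow.coe_subtype]
    rfl
  have hle : (((d : G) • S : Sylow p G) : Subgroup G) ≤ M := Sylow.smul_le hSM d
  rw [h1, Subgroup.map_subgroupOf_eq_of_le hle]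

/-- The inclusion of a subgroup commutes with right conjugation. -/
theorem map_subtype_subgroupConjRight (M : Subgroup G) (x : ↥M) (B : Subgroup ↥M) :
    (subgroupConjRight x B).map M.subtype = subgroupConjRight (x : G) (B.map M.subtype) := by
  ext u
  constructor
  · intro hu
    obtain ⟨v, hv, rfl⟩ := Subgroup.mem_map.mp hu
    rw [mem_subgroupConjRight_iff] at hv ⊢
    exact Subgroup.mem_map.mpr ⟨x * v * x⁻¹, hv, rfl⟩
  · intro h
    rw [mem_subgroupConjRight_iff] at h
    obtain ⟨w, hw, hwe⟩ := Subgroup.mem_map.mp h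
    refine Subgroup.mem_map.mpr ⟨x⁻¹ * w * x, ?_, ?_⟩
    · rw [mem_subgroupConjRight_iff]
      have : x * (x⁻¹ * w * x) * x⁻¹ = w := by group
      rw [this]
      exact hw
    · have h1 : M.subtype (x⁻¹ * w * x) = (x : G)⁻¹ * M.subtype w * (x : G) := rfl
      rw [h1, hwe]
      group

/-- The normalizer of a right conjugate. -/
theorem normalizer_subgroupConjRight (h : G) (F : Subgroup G) :
    subgroupConjRight h (Subgroup.normalizer (F : Set G)) =
      Subgroup.normalizer ((subgroupConjRight h F : Subgroup G) : Set G) := by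
  unfold subgroupConjRight
  exact Subgroup.map_equiv_normalizer_eq F (MulAut.conj h⁻¹)

/-- A link at the level of the ambient group: two Sylow `p`-subgroups inside the normalizer of a
member `F` of `f(P)`, `P` a Sylow `p`-subgroup, conjugate by an element of that normalizer. -/
def GLink (p : ℕ) (f : Subgroup G → Set (Subgroup G)) (D : Subgroup G) (A B : Sylow p G) : Prop :=
  ∃ (P : Sylow p G) (F : Subgroup G) (x : G), F ∈ f (P : Subgroup G) ∧
    (A : Subgroup G) ≤ Subgroup.normalizer (F : Set G) ∧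
    (B : Subgroup G) ≤ Subgroup.normalizer (F : Set G) ∧
    x ∈ Subgroup.normalizer (F : Set G) ∧
    subgroupConjRight x (B : Subgroup G) = (A : Subgroup G) ∧ D ≤ (B : Subgroup G)

/-- A link inside a subgroup `M`, written with subgroups of the ambient group. -/
def MLink (p : ℕ) (f : Subgroup G → Set (Subgroup G)) (M : Subgroup G) (D : Subgroup G)
    (A B : Sylow p ↥M) : Prop :=
  ∃ (P : Sylow p ↥M) (F : Subgroup G) (x : G), F ∈ f ((P : Subgroup ↥M).map M.subtype) ∧
    (A : Subgroup ↥M).map M.subtype ≤ Subgroup.normalizer (F : Set G) ∧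
    (B : Subgroup ↥M).map M.subtype ≤ Subgroup.normalizer (F : Set G) ∧
    x ∈ M ∧ x ∈ Subgroup.normalizer (F : Set G) ∧
    subgroupConjRight x ((B : Subgroup ↥M).map M.subtype) = (A : Subgroup ↥M).map M.subtype ∧
    D ≤ (B : Subgroup ↥M).map M.subtype

theorem GLink.mono {p : ℕ} {f : Subgroup G → Set (Subgroup G)} {D D' : Subgroup G} (h : D' ≤ D)
    {A B : Sylow p G} (hl : GLink p f D A B) : GLink p f D' A B := by
  obtain ⟨P, F, x, h1, h2, h3, h4, h5, h6⟩ := hl
  exact ⟨P, F, x, h1, h2, h3, h4, h5, h.trans h6⟩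

/-- Links are carried to links by conjugation. -/
theorem glink_conj {p : ℕ} {f : Subgroup G → Set (Subgroup G)} (hf : IsNormalizerFunctor p f)
    (h : G) {D : Subgroup G} {A B : Sylow p G} (hl : GLink p f D A B) :
    GLink p f (subgroupConjRight h D) (h⁻¹ • A) (h⁻¹ • B) := by
  obtain ⟨P, F, x, hF, hA, hB, hx, hconj, hD⟩ := hl
  refine ⟨h⁻¹ • P, subgroupConjRight h F, h⁻¹ * x * h, ?_, ?_, ?_, ?_, ?_, ?_⟩
  · rw [← subgroupConjRight_sylow]
    have h1 := (hf P P.isPGroup').2 h⁻¹
    unfold subgroupConjRight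
    rw [h1]
    exact ⟨F, hF, rfl⟩
  · rw [← subgroupConjRight_sylow, ← normalizer_subgroupConjRight]
    exact subgroupConjRight_mono h hA
  · rw [← subgroupConjRight_sylow, ← normalizer_subgroupConjRight]
    exact subgroupConjRight_mono h hB
  · rw [← normalizer_subgroupConjRight, mem_subgroupConjRight_iff]
    have : h * (h⁻¹ * x * h) * h⁻¹ = x := by group
    rw [this]
    exact hx
  · rw [← subgroupConjRight_sylow, ← subgroupConjRight_sylow, ← subgroupConjRight_mul, ← hconj,
      ← subgroupConjRight_mul]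
    congr 1
    group
  · rw [← subgroupConjRight_sylow]
    exact subgroupConjRight_mono h hD

/-- A regular subgroup: any two distinct Sylow `p`-subgroups of `M` meeting nontrivially are
joined by a chain of links inside `M`. -/
theorem mlink_chain_of_regular [Finite G] {p : ℕ} [Fact p.Prime]
    {f : Subgroup G → Set (Subgroup G)} (hf : IsNormalizerFunctor p f) {M : Subgroup G}
    (hreg : IsFunctorRegular p f M) (A B : Sylow p ↥M) (hne : A ≠ B)
    (hbot : (A : Subgroup ↥M) ⊓ (B : Subgroup ↥M) ≠ ⊥) :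
    Relation.ReflTransGen
      (MLink p f M ((A : Subgroup ↥M).map M.subtype ⊓ (B : Subgroup ↥M).map M.subtype)) A B := by
  have h1 := controls_iff.mp hreg A B hne hbot
  refine Relation.ReflTransGen.mono ?_ _ _ h1
  rintro a b ⟨X', x', hXa, hXb, hx', hconj, hD⟩
  obtain ⟨⟨X, ⟨P, F, hF, rfl⟩, rfl⟩, ha⟩ := hXa
  obtain ⟨-, hb⟩ := hXb
  have hPp : IsPGroup p ↥((P : Subgroup ↥M).map M.subtype) := P.isPGroup'.map _
  have hfP := (hf _ hPp).1 F hF
  have hPX : (P : Subgroup ↥M) ≤ (M ⊓ Subgroup.normalizer (F : Set G)).subgroupOf M := by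
    intro u hu
    rw [Subgroup.mem_subgroupOf]
    exact Subgroup.mem_inf.mpr ⟨u.2, hfP.2 (Subgroup.le_normalizer ⟨u, hu, rfl⟩)⟩
  have ha' := (sylowInter_iff_le P a hPX).mp ha
  have hb' := (sylowInter_iff_le P b hPX).mp hb
  refine ⟨P, F, (x' : G), hF, ?_, ?_, x'.2, ?_, ?_, ?_⟩
  · rintro _ ⟨v, hv, rfl⟩
    exact (Subgroup.mem_inf.mp (Subgroup.mem_subgroupOf.mp (ha' hv))).2
  · rintro _ ⟨v, hv, rfl⟩
    exact (Subgroup.mem_inf.mp (Subgroup.mem_subgroupOf.mp (hb' hv))).2
  · exact (Subgroup.mem_inf.mp (Subgroup.mem_subgroupOf.mp hx')).2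
  · rw [← hconj]
    exact (map_subtype_subgroupConjRight M x' _).symm
  · rw [← Subgroup.map_inf _ _ _ (Subgroup.subtype_injective M)]
    exact Subgroup.map_mono (hD.trans inf_le_left)

/-- A regular subgroup containing a Sylow `p`-subgroup of `G`: chains of links in `G`. -/
theorem glink_chain_of_regular [Finite G] {p : ℕ} [Fact p.Prime]
    {f : Subgroup G → Set (Subgroup G)} (hf : IsNormalizerFunctor p f) (S : Sylow p G)
    {M : Subgroup G} (hSM : (S : Subgroup G) ≤ M) (hreg : IsFunctorRegular p f M)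
    (A B : Sylow p G) (hA : (A : Subgroup G) ≤ M) (hB : (B : Subgroup G) ≤ M) (hne : A ≠ B)
    (hbot : (A : Subgroup G) ⊓ (B : Subgroup G) ≠ ⊥) :
    Relation.ReflTransGen (GLink p f ((A : Subgroup G) ⊓ (B : Subgroup G))) A B := by
  have hex := exists_sylow_eq_map S hSM
  choose φ hφ using hex
  have hφA : φ (A.subtype hA) = A := by
    apply Sylow.ext
    rw [hφ, Sylow.coe_subtype, Subgroup.map_subgroupOf_eq_of_le hA]
  have hφB : φ (B.subtype hB) = B := by
    apply Sylow.ext
    rw [hφ, Sylow.coe_subtype, Subgroup.map_subgroupOf_eq_of_le hB]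
  have hne' : A.subtype hA ≠ B.subtype hB := by
    intro h
    apply hne
    rw [← hφA, ← hφB, h]
  have hbot' : ((A.subtype hA : Sylow p ↥M) : Subgroup ↥M) ⊓
      ((B.subtype hB : Sylow p ↥M) : Subgroup ↥M) ≠ ⊥ := by
    intro h
    apply hbot
    rw [eq_bot_iff]
    intro u hu
    have hu1 := (Subgroup.mem_inf.mp hu).1
    have hu2 := (Subgroup.mem_inf.mp hu).2
    have h3 : (⟨u, hA hu1⟩ : ↥M) ∈ ((A.subtype hA : Sylow p ↥M) : Subgroup ↥M) ⊓
        ((B.subtype hB : Sylow p ↥M) : Subgroup ↥M) := by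
      refine Subgroup.mem_inf.mpr ⟨?_, ?_⟩
      · rw [Sylow.coe_subtype, Subgroup.mem_subgroupOf]
        exact hu1
      · rw [Sylow.coe_subtype, Subgroup.mem_subgroupOf]
        exact hu2
    rw [h, Subgroup.mem_bot] at h3
    rw [Subgroup.mem_bot]
    exact congrArg Subtype.val h3
  have h1 := mlink_chain_of_regular hf hreg _ _ hne' hbot'
  rw [← hφ, ← hφ, hφA, hφB] at h1
  have h2 := Relation.ReflTransGen.lift φ (r := MLink p f M ((A : Subgroup G) ⊓ (B : Subgroup G)))
    (p := GLink p f ((A : Subgroup G) ⊓ (B : Subgroup G))) (by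
      rintro a b ⟨P, F, x, hF, ha, hb, hxM, hxN, hconj, hD⟩
      refine ⟨φ P, F, x, ?_, ?_, ?_, hxN, ?_, ?_⟩
      · rw [hφ]
        exact hF
      · rw [hφ]
        exact ha
      · rw [hφ]
        exact hb
      · rw [hφ, hφ]
        exact hconj
      · rw [hφ]
        exact hD) _ _ h1
  simp only [Function.onFun] at h2
  rw [hφA, hφB] at h2
  exact h2

/-- Chains of links in `G` give regularity of the whole group. -/
theorem regular_top_of_glink_chain [Finite G] {p : ℕ} [Fact p.Prime]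
    {f : Subgroup G → Set (Subgroup G)} (hf : IsNormalizerFunctor p f)
    (h : ∀ A B : Sylow p G, A ≠ B → (A : Subgroup G) ⊓ (B : Subgroup G) ≠ ⊥ →
      Relation.ReflTransGen (GLink p f ((A : Subgroup G) ⊓ (B : Subgroup G))) A B) :
    IsFunctorRegular p f ⊤ := by
  unfold IsFunctorRegular
  rw [controls_iff]
  intro A' B' hne hbot
  obtain ⟨S⟩ := (inferInstance : Nonempty (Sylow p G))
  have hex := exists_sylow_eq_map S (le_top : (S : Subgroup G) ≤ ⊤)
  choose φ hφ using hex
  have hψφ : ∀ Q : Sylow p ↥(⊤ : Subgroup G),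
      (φ Q).subtype (le_top : ((φ Q : Sylow p G) : Subgroup G) ≤ ⊤) = Q := by
    intro Q
    apply Sylow.ext
    rw [Sylow.coe_subtype, hφ]
    ext u
    rw [Subgroup.mem_subgroupOf]
    constructor
    · rintro ⟨v, hv, hvu⟩
      have : v = u := Subtype.ext hvu
      rw [← this]
      exact hv
    · intro hu
      exact ⟨u, hu, rfl⟩
  have hne2 : φ A' ≠ φ B' := by
    intro h1
    apply hne
    rw [← hψφ A', ← hψφ B']
    congr 1
  have hbot2 : ((φ A' : Sylow p G) : Subgroup G) ⊓ ((φ B' : Sylow p G) : Subgroup G) ≠ ⊥ := by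
    rw [hφ, hφ, ← Subgroup.map_inf _ _ _ (Subgroup.subtype_injective _)]
    intro h1
    rw [Subgroup.map_eq_bot_iff_of_injective _ (Subgroup.subtype_injective _)] at h1
    exact hbot h1
  have h1 := h (φ A') (φ B') hne2 hbot2
  have h2 := Relation.ReflTransGen.lift
    (fun R : Sylow p G => R.subtype (le_top : (R : Subgroup G) ≤ ⊤))
    (r := GLink p f (((φ A' : Sylow p G) : Subgroup G) ⊓ ((φ B' : Sylow p G) : Subgroup G)))
    (p := Link p ((fun X : Subgroup G => X.subgroupOf (⊤ : Subgroup G)) '' functorFamily p f ⊤)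
      ((A' : Subgroup ↥(⊤ : Subgroup G)) ⊓ (B' : Subgroup ↥(⊤ : Subgroup G)))) (by
      rintro a b ⟨P, F, x, hF, ha, hb, hxN, hconj, hD⟩
      have hX𝓕 : (⊤ ⊓ Subgroup.normalizer (F : Set G)).subgroupOf (⊤ : Subgroup G) ∈
          (fun X : Subgroup G => X.subgroupOf (⊤ : Subgroup G)) '' functorFamily p f ⊤ := by
        refine ⟨⊤ ⊓ Subgroup.normalizer (F : Set G),
          ⟨P.subtype (le_top : (P : Subgroup G) ≤ ⊤), F, ?_, rfl⟩, rfl⟩
        rw [Sylow.coe_subtype, Subgroup.map_subgroupOf_eq_of_le le_top]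
        exact hF
      have hfP := (hf _ P.isPGroup').1 F hF
      have hPX : ((P.subtype (le_top : (P : Subgroup G) ≤ ⊤) : Sylow p ↥(⊤ : Subgroup G)) :
          Subgroup ↥(⊤ : Subgroup G)) ≤
          (⊤ ⊓ Subgroup.normalizer (F : Set G)).subgroupOf (⊤ : Subgroup G) := by
        intro u hu
        rw [Sylow.coe_subtype, Subgroup.mem_subgroupOf] at hu
        rw [Subgroup.mem_subgroupOf]
        exact Subgroup.mem_inf.mpr ⟨Subgroup.mem_top _, hfP.2 (Subgroup.le_normalizer hu)⟩
      have hmem : ∀ c : Sylow p G, (c : Subgroup G) ≤ Subgroup.normalizer (F : Set G) →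
          (⊤ ⊓ Subgroup.normalizer (F : Set G)).subgroupOf (⊤ : Subgroup G) ∈
            sylowMembers p ((fun X : Subgroup G => X.subgroupOf (⊤ : Subgroup G)) ''
              functorFamily p f ⊤)
              ((c.subtype (le_top : (c : Subgroup G) ≤ ⊤) : Sylow p ↥(⊤ : Subgroup G)) :
                Subgroup ↥(⊤ : Subgroup G)) := by
        intro c hc
        refine ⟨hX𝓕, (sylowInter_iff_le (P.subtype (le_top : (P : Subgroup G) ≤ ⊤))
          (c.subtype (le_top : (c : Subgroup G) ≤ ⊤)) hPX).mpr ?_⟩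
        intro u hu
        rw [Sylow.coe_subtype, Subgroup.mem_subgroupOf] at hu
        rw [Subgroup.mem_subgroupOf]
        exact Subgroup.mem_inf.mpr ⟨Subgroup.mem_top _, hc hu⟩
      refine ⟨(⊤ ⊓ Subgroup.normalizer (F : Set G)).subgroupOf (⊤ : Subgroup G),
        ⟨x, Subgroup.mem_top x⟩, hmem a ha, hmem b hb, ?_, ?_, ?_⟩
      · rw [Subgroup.mem_subgroupOf]
        exact Subgroup.mem_inf.mpr ⟨Subgroup.mem_top _, hxN⟩
      · ext u
        rw [mem_subgroupConjRight_iff, Sylow.coe_subtype, Sylow.coe_subtype,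
          Subgroup.mem_subgroupOf, Subgroup.mem_subgroupOf, ← hconj, mem_subgroupConjRight_iff]
        rfl
      · intro u hu
        have hu' : (u : G) ∈ ((φ A' : Sylow p G) : Subgroup G) ⊓
            ((φ B' : Sylow p G) : Subgroup G) := by
          rw [hφ, hφ]
          exact Subgroup.mem_inf.mpr ⟨⟨u, (Subgroup.mem_inf.mp hu).1, rfl⟩,
            ⟨u, (Subgroup.mem_inf.mp hu).2, rfl⟩⟩
        have hub := hD hu'
        refine Subgroup.mem_inf.mpr ⟨?_, ?_⟩
        · rw [Sylow.coe_subtype, Subgroup.mem_subgroupOf]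
          exact hub
        · rw [Subgroup.mem_subgroupOf]
          exact Subgroup.mem_inf.mpr ⟨Subgroup.mem_top _, hb hub⟩) _ _ h1
  simp only [Function.onFun, hψφ] at h2
  exact h2

end Cfsg.Agent.Lib.Helper49.FunctorRegular
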