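import Mathlib
import Cfsg.Agent.Lib.Helper42.G2Base

set_option autoImplicit false

namespace Cfsg.Agent.Lib.Helper49.G2Trans

open Cfsg.Lie Cfsg.Agent.Lib.Helper42.G2Base

variable {F : Type*} [Field F]

theorem ext8 {v w : Fin 8 → F} (h0 : v 0 = w 0) (h1 : v 1 = w 1) (h2 : v 2 = w 2)
    (h3 : v 3 = w 3) (h4 : v 4 = w 4) (h5 : v 5 = w 5) (h6 : v 6 = w 6) (h7 : v 7 = w 7) :
    v = w := by
  funext i
  fin_cases i
  · exact h0
  · exact h1
  · exact h2
  · exact h3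
  · exact h4
  · exact h5
  · exact h6
  · exact h7

/-- A linear equivalence from explicit formulas. -/
def mkEquiv (f f' : (Fin 8 → F) → (Fin 8 → F)) (hadd : ∀ x y, f (x + y) = f x + f y)
    (hsmul : ∀ (c : F) x, f (c • x) = c • f x) (h1 : ∀ x, f' (f x) = x)
    (h2 : ∀ x, f (f' x) = x) : (Fin 8 → F) ≃ₗ[F] (Fin 8 → F) :=
  { toFun := f
    map_add' := hadd
    map_smul' := hsmul
    invFun := f'
    left_inv := h1
    right_inv := h2 }

@[simp] theorem mkEquiv_apply (f f' : (Fin 8 → F) → (Fin 8 → F)) (hadd hsmul h1 h2)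
    (x : Fin 8 → F) : mkEquiv f f' hadd hsmul h1 h2 x = f x := rfl

def fS (t : F) (x : Fin 8 → F) : Fin 8 → F :=
  ![x 0 + t * x 6, x 1, x 2, x 3 + t * (x 7 - x 0) - t ^ 2 * x 6, x 4 + t * x 2,
    x 5 - t * x 1, x 6, x 7 - t * x 6]

def eS (t : F) : (Fin 8 → F) ≃ₗ[F] (Fin 8 → F) :=
  mkEquiv (fS t) (fS (-t))
    (by intro x y; apply ext8 <;> simp [fS] <;> ring)
    (by intro c x; apply ext8 <;> simp [fS] <;> ring)
    (by intro x; apply ext8 <;> simp [fS] <;> ring)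
    (by intro x; apply ext8 <;> simp [fS] <;> ring)

theorem eS_mem (t : F) : eS t ∈ AutO F := by
  intro x y
  show fS t (zornMul x y) = zornMul (fS t x) (fS t y)
  apply ext8 <;> simp [fS, zornMul, dot3, cross3] <;> ring

def fU (t : F) (x : Fin 8 → F) : Fin 8 → F :=
  ![x 0, x 1 - t * x 2, x 2, x 3, x 4, x 5 + t * x 4, x 6, x 7]

def eU (t : F) : (Fin 8 → F) ≃ₗ[F] (Fin 8 → F) :=
  mkEquiv (fU t) (fU (-t))
    (by intro x y; apply ext8 <;> simp [fU] <;> ring)
    (by intro c x; apply ext8 <;> simp [fU] <;> ring)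
    (by intro x; apply ext8 <;> simp [fU] <;> ring)
    (by intro x; apply ext8 <;> simp [fU] <;> ring)

theorem eU_mem (t : F) : eU t ∈ AutO F := by
  intro x y
  show fU t (zornMul x y) = zornMul (fU t x) (fU t y)
  apply ext8 <;> simp [fU, zornMul, dot3, cross3] <;> ring

def fL (t : F) (x : Fin 8 → F) : Fin 8 → F :=
  ![x 0, x 1, x 2 - t * x 1, x 3, x 4 + t * x 5, x 5, x 6, x 7]

def eL (t : F) : (Fin 8 → F) ≃ₗ[F] (Fin 8 → F) :=
  mkEquiv (fL t) (fL (-t))
    (by intro x y; apply ext8 <;> simp [fL] <;> ring)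
    (by intro c x; apply ext8 <;> simp [fL] <;> ring)
    (by intro x; apply ext8 <;> simp [fL] <;> ring)
    (by intro x; apply ext8 <;> simp [fL] <;> ring)

theorem eL_mem (t : F) : eL t ∈ AutO F := by
  intro x y
  show fL t (zornMul x y) = zornMul (fL t x) (fL t y)
  apply ext8 <;> simp [fL, zornMul, dot3, cross3] <;> ring

def fT (x : Fin 8 → F) : Fin 8 → F :=
  ![x 7, -x 4, -x 5, -x 6, -x 1, -x 2, -x 3, x 0]

def eT : (Fin 8 → F) ≃ₗ[F] (Fin 8 → F) :=
  mkEquiv fT fT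
    (by intro x y; apply ext8 <;> simp [fT] <;> ring)
    (by intro c x; apply ext8 <;> simp [fT])
    (by intro x; apply ext8 <;> simp [fT])
    (by intro x; apply ext8 <;> simp [fT])

theorem eT_mem : (eT : (Fin 8 → F) ≃ₗ[F] (Fin 8 → F)) ∈ AutO F := by
  intro x y
  show fT (zornMul x y) = zornMul (fT x) (fT y)
  apply ext8 <;> simp [fT, zornMul, dot3, cross3] <;> ring

def fR (x : Fin 8 → F) : Fin 8 → F :=
  ![x 0, x 2, x 3, x 1, x 5, x 6, x 4, x 7]

def fR' (x : Fin 8 → F) : Fin 8 → F :=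
  ![x 0, x 3, x 1, x 2, x 6, x 4, x 5, x 7]

def eR : (Fin 8 → F) ≃ₗ[F] (Fin 8 → F) :=
  mkEquiv fR fR'
    (by intro x y; apply ext8 <;> simp [fR])
    (by intro c x; apply ext8 <;> simp [fR])
    (by intro x; apply ext8 <;> simp [fR, fR'])
    (by intro x; apply ext8 <;> simp [fR, fR'])

theorem eR_mem : (eR : (Fin 8 → F) ≃ₗ[F] (Fin 8 → F)) ∈ AutO F := by
  intro x y
  show fR (zornMul x y) = zornMul (fR x) (fR y)
  apply ext8 <;> simp [fR, zornMul, dot3, cross3] <;> ring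

/-- The orbit relation of `AutO F`. -/
def Rel (e e' : Fin 8 → F) : Prop := ∃ g ∈ AutO F, g e = e'

theorem Rel.refl (e : Fin 8 → F) : Rel e e := ⟨1, (AutO F).one_mem, rfl⟩

theorem Rel.trans {e e' e'' : Fin 8 → F} (h : Rel e e') (h' : Rel e' e'') : Rel e e'' := by
  obtain ⟨g, hg, rfl⟩ := h
  obtain ⟨g', hg', rfl⟩ := h'
  exact ⟨g' * g, (AutO F).mul_mem hg' hg, rfl⟩

theorem Rel.symm {e e' : Fin 8 → F} (h : Rel e e') : Rel e' e := by
  obtain ⟨g, hg, rfl⟩ := h
  refine ⟨g⁻¹, (AutO F).inv_mem hg, ?_⟩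
  change (g⁻¹ * g) e = e
  rw [inv_mul_cancel]
  rfl

theorem rel_of_mem {g : (Fin 8 → F) ≃ₗ[F] (Fin 8 → F)} (hg : g ∈ AutO F) (e : Fin 8 → F) :
    Rel e (g e) := ⟨g, hg, rfl⟩

theorem one8_mul (x : Fin 8 → F) : zornMul (one8 F) x = x := by
  apply ext8 <;> simp [one8, zornMul, dot3, cross3]

theorem mul_one8 (x : Fin 8 → F) : zornMul x (one8 F) = x := by
  apply ext8 <;> simp [one8, zornMul, dot3, cross3]

theorem map_one8 {g : (Fin 8 → F) ≃ₗ[F] (Fin 8 → F)} (hg : g ∈ AutO F) : g (one8 F) = one8 F := by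
  have h1 : zornMul (g (one8 F)) (one8 F) = one8 F := by
    have := hg (one8 F) (g.symm (one8 F))
    rw [one8_mul, LinearEquiv.apply_symm_apply] at this
    exact this.symm
  rw [mul_one8] at h1
  exact h1

theorem idem_of_rel {e e' : Fin 8 → F} (he : IsIdem F e) (h : Rel e e') : IsIdem F e' := by
  obtain ⟨g, hg, rfl⟩ := h
  refine ⟨?_, ?_, ?_⟩
  · rw [← hg e e, he.1]
  · intro h0
    apply he.2.1
    have : g e = g 0 := by rw [h0, map_zero]
    exact g.injective this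
  · intro h1
    apply he.2.2
    have : g e = g (one8 F) := by rw [h1, map_one8 hg]
    exact g.injective this

theorem idem_coords {e : Fin 8 → F} (he : IsIdem F e) :
    e 0 + e 7 = 1 ∧ e 1 * e 4 + e 2 * e 5 + e 3 * e 6 = e 0 * e 7 := by
  obtain ⟨hm, h0, h1⟩ := he
  have c0 := congrFun hm 0
  have c1 := congrFun hm 1
  have c2 := congrFun hm 2
  have c3 := congrFun hm 3
  have c4 := congrFun hm 4
  have c5 := congrFun hm 5
  have c6 := congrFun hm 6
  have c7 := congrFun hm 7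
  simp [zornMul, dot3, cross3] at c0 c1 c2 c3 c4 c5 c6 c7
  by_cases hs : e 0 + e 7 = 1
  · refine ⟨hs, ?_⟩
    have h7 : e 7 = 1 - e 0 := by rw [← hs]; ring
    rw [h7]
    linear_combination c0
  · exfalso
    have hne : e 0 + e 7 - 1 ≠ 0 := fun h => hs (by linear_combination h)
    have z1 : e 1 = 0 := by
      have : (e 0 + e 7 - 1) * e 1 = 0 := by linear_combination c1
      exact (mul_eq_zero.mp this).resolve_left hne
    have z2 : e 2 = 0 := by
      have : (e 0 + e 7 - 1) * e 2 = 0 := by linear_combination c2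
      exact (mul_eq_zero.mp this).resolve_left hne
    have z3 : e 3 = 0 := by
      have : (e 0 + e 7 - 1) * e 3 = 0 := by linear_combination c3
      exact (mul_eq_zero.mp this).resolve_left hne
    have z4 : e 4 = 0 := by
      have : (e 0 + e 7 - 1) * e 4 = 0 := by linear_combination c4
      exact (mul_eq_zero.mp this).resolve_left hne
    have z5 : e 5 = 0 := by
      have : (e 0 + e 7 - 1) * e 5 = 0 := by linear_combination c5
      exact (mul_eq_zero.mp this).resolve_left hne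
    have z6 : e 6 = 0 := by
      have : (e 0 + e 7 - 1) * e 6 = 0 := by linear_combination c6
      exact (mul_eq_zero.mp this).resolve_left hne
    have q0 : e 0 * (e 0 - 1) = 0 := by
      rw [z1, z2, z3] at c0
      linear_combination c0
    have q7 : e 7 * (e 7 - 1) = 0 := by
      rw [z4, z5, z6] at c7
      linear_combination c7
    rcases mul_eq_zero.mp q0 with a0 | a0
    · rcases mul_eq_zero.mp q7 with a7 | a7
      · apply h0
        apply ext8 <;> simp [a0, a7, z1, z2, z3, z4, z5, z6]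
      · apply hs
        rw [a0]; linear_combination a7
    · rcases mul_eq_zero.mp q7 with a7 | a7
      · apply hs
        rw [a7]; linear_combination a0
      · apply h1
        have b0 : e 0 = 1 := by linear_combination a0
        have b7 : e 7 = 1 := by linear_combination a7
        apply ext8 <;> simp [one8, b0, b7, z1, z2, z3, z4, z5, z6]


theorem eS_apply (t : F) (x : Fin 8 → F) : eS t x = fS t x := rfl
theorem eU_apply (t : F) (x : Fin 8 → F) : eU t x = fU t x := rfl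
theorem eL_apply (t : F) (x : Fin 8 → F) : eL t x = fL t x := rfl
theorem eT_apply (x : Fin 8 → F) : eT x = fT x := rfl
theorem eR_apply (x : Fin 8 → F) : eR x = fR x := rfl

theorem norm1 (e : Fin 8 → F) : ∃ e', Rel e e' ∧ e' 4 = 0 ∧ e' 0 = e 0 ∧ e' 7 = e 7 ∧
    e' 6 = e 6 ∧ (e 1 = 0 → e 2 = 0 → e 3 = 0 → e' 1 = 0 ∧ e' 2 = 0 ∧ e' 3 = 0) := by
  by_cases h4 : e 4 = 0
  · exact ⟨e, Rel.refl e, h4, rfl, rfl, rfl, fun a b c => ⟨a, b, c⟩⟩
  · by_cases h5 : e 5 = 0
    · refine ⟨eL (-1) (eU 1 e),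
        (rel_of_mem (eU_mem 1) e).trans (rel_of_mem (eL_mem (-1)) _), ?_, ?_, ?_, ?_, ?_⟩
      · rw [eL_apply, eU_apply]; simp [fL, fU, h5]
      · rw [eL_apply, eU_apply]; simp [fL, fU]
      · rw [eL_apply, eU_apply]; simp [fL, fU]
      · rw [eL_apply, eU_apply]; simp [fL, fU]
      · intro a b c
        rw [eL_apply, eU_apply]
        simp [fL, fU, a, b, c]
    · refine ⟨eL (-(e 4 / e 5)) e, rel_of_mem (eL_mem _) e, ?_, ?_, ?_, ?_, ?_⟩
      · rw [eL_apply]
        simp [fL]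
        field_simp
        ring
      · rw [eL_apply]; simp [fL]
      · rw [eL_apply]; simp [fL]
      · rw [eL_apply]; simp [fL]
      · intro a b c
        rw [eL_apply]
        simp [fL, a, b, c]

theorem norm3 (e : Fin 8 → F) : ∃ e', Rel e e' ∧ e' 4 = 0 ∧ e' 5 = 0 ∧ e' 0 = e 0 ∧ e' 7 = e 7 ∧
    (e 1 = 0 → e 2 = 0 → e 3 = 0 → e' 1 = 0 ∧ e' 2 = 0 ∧ e' 3 = 0) := by
  obtain ⟨e1, r1, h14, h10, h17, -, h1a⟩ := norm1 e
  obtain ⟨e3, r3, h34, h30, h37, h36, h3a⟩ := norm1 (eR e1)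
  refine ⟨eR (eR e3), ((r1.trans (rel_of_mem eR_mem e1)).trans r3).trans
    ((rel_of_mem eR_mem e3).trans (rel_of_mem eR_mem _)), ?_, ?_, ?_, ?_, ?_⟩
  · rw [eR_apply, eR_apply]
    simp only [fR, Matrix.cons_val]
    rw [h36, eR_apply]
    simp only [fR, Matrix.cons_val]
    exact h14
  · rw [eR_apply, eR_apply]
    simp only [fR, Matrix.cons_val]
    exact h34
  · rw [eR_apply, eR_apply]
    simp only [fR, Matrix.cons_val]
    rw [h30, eR_apply]
    simp only [fR, Matrix.cons_val]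
    exact h10
  · rw [eR_apply, eR_apply]
    simp only [fR, Matrix.cons_val]
    rw [h37, eR_apply]
    simp only [fR, Matrix.cons_val]
    exact h17
  · intro a b c
    obtain ⟨a1, b1, c1⟩ := h1a a b c
    have a2 : (eR e1) 1 = 0 := by rw [eR_apply]; simp only [fR, Matrix.cons_val]; exact b1
    have b2 : (eR e1) 2 = 0 := by rw [eR_apply]; simp only [fR, Matrix.cons_val]; exact c1
    have c2 : (eR e1) 3 = 0 := by rw [eR_apply]; simp only [fR, Matrix.cons_val]; exact a1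
    obtain ⟨a3, b3, c3⟩ := h3a a2 b2 c2
    rw [eR_apply, eR_apply]
    simp only [fR, Matrix.cons_val]
    exact ⟨c3, a3, b3⟩

theorem norm3a (e : Fin 8 → F) : ∃ e', Rel e e' ∧ e' 1 = 0 ∧ e' 2 = 0 ∧ e' 0 = e 0 ∧ e' 7 = e 7 ∧
    (e 4 = 0 → e 5 = 0 → e 6 = 0 → e' 4 = 0 ∧ e' 5 = 0 ∧ e' 6 = 0) := by
  obtain ⟨e2, r2, h24, h25, h20, h27, h2a⟩ := norm3 (eT e)
  refine ⟨eT e2, ((rel_of_mem eT_mem e).trans r2).trans (rel_of_mem eT_mem e2), ?_, ?_, ?_, ?_, ?_⟩
  · rw [eT_apply]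
    simp only [fT, Matrix.cons_val]
    rw [h24, neg_zero]
  · rw [eT_apply]
    simp only [fT, Matrix.cons_val]
    rw [h25, neg_zero]
  · rw [eT_apply]
    simp only [fT, Matrix.cons_val]
    rw [h27, eT_apply]
    simp only [fT, Matrix.cons_val]
  · rw [eT_apply]
    simp only [fT, Matrix.cons_val]
    rw [h20, eT_apply]
    simp only [fT, Matrix.cons_val]
  · intro a b c
    have a1 : (eT e) 1 = 0 := by
      rw [eT_apply]; simp only [fT, Matrix.cons_val]; rw [a, neg_zero]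
    have b1 : (eT e) 2 = 0 := by
      rw [eT_apply]; simp only [fT, Matrix.cons_val]; rw [b, neg_zero]
    have c1 : (eT e) 3 = 0 := by
      rw [eT_apply]; simp only [fT, Matrix.cons_val]; rw [c, neg_zero]
    obtain ⟨a2, b2, c2⟩ := h2a a1 b1 c1
    rw [eT_apply]
    simp only [fT, Matrix.cons_val]
    rw [a2, b2, c2, neg_zero]
    exact ⟨rfl, rfl, rfl⟩

theorem kill0 {e : Fin 8 → F} (he : IsIdem F e) : ∃ e', Rel e e' ∧ e' 0 = 0 := by
  obtain ⟨e1, r1, h14, h15, -, -, -⟩ := norm3 e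
  have hi := idem_of_rel he r1
  obtain ⟨hs, hp⟩ := idem_coords hi
  by_cases h6 : e1 6 = 0
  · rw [h14, h15, h6] at hp
    have hp' : e1 0 * e1 7 = 0 := by rw [← hp]; ring
    rcases mul_eq_zero.mp hp' with h0 | h7
    · exact ⟨e1, r1, h0⟩
    · refine ⟨eT e1, r1.trans (rel_of_mem eT_mem e1), ?_⟩
      rw [eT_apply]
      simp only [fT, Matrix.cons_val]
      exact h7
  · refine ⟨eS (-(e1 0 / e1 6)) e1, r1.trans (rel_of_mem (eS_mem _) e1), ?_⟩
    rw [eS_apply]
    simp [fS]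
    field_simp
    ring

theorem killb {e : Fin 8 → F} (he : IsIdem F e) (h0 : e 0 = 0) :
    ∃ e', Rel e e' ∧ e' 0 = 0 ∧ e' 4 = 0 ∧ e' 5 = 0 ∧ e' 6 = 0 := by
  obtain ⟨e1, r1, h14, h15, h10, -, -⟩ := norm3 e
  rw [h0] at h10
  have hi := idem_of_rel he r1
  obtain ⟨hs, hp⟩ := idem_coords hi
  by_cases h6 : e1 6 = 0
  · exact ⟨e1, r1, h10, h14, h15, h6⟩
  · rw [h14, h15, h10] at hp
    have hp' : e1 3 * e1 6 = 0 := by linear_combination hp
    have h3 : e1 3 = 0 := (mul_eq_zero.mp hp').resolve_right h6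
    refine ⟨eT (eS (-(e1 6)) (eT e1)), r1.trans ((rel_of_mem eT_mem e1).trans
      ((rel_of_mem (eS_mem _) _).trans (rel_of_mem eT_mem _))), ?_, ?_, ?_, ?_⟩
    · rw [eT_apply, eS_apply, eT_apply]
      simp [fT, fS, h3, h10]
    · rw [eT_apply, eS_apply, eT_apply]
      simp [fT, fS, h14, h15]
    · rw [eT_apply, eS_apply, eT_apply]
      simp [fT, fS, h14, h15]
    · rw [eT_apply, eS_apply, eT_apply]
      simp [fT, fS, h3, h10]
      have h7 : e1 7 = 1 := by rw [h10] at hs; simpa using hs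
      rw [h7]
      ring

theorem kill_all {e : Fin 8 → F} (he : IsIdem F e) (h0 : e 0 = 0) (h4 : e 4 = 0) (h5 : e 5 = 0)
    (h6 : e 6 = 0) : Rel e (![0, 0, 0, 0, 0, 0, 0, 1] : Fin 8 → F) := by
  obtain ⟨e1, r1, h11, h12, h10, -, hb⟩ := norm3a e
  rw [h0] at h10
  obtain ⟨h14, h15, h16⟩ := hb h4 h5 h6
  have hi := idem_of_rel he r1
  obtain ⟨hs, -⟩ := idem_coords hi
  have h7 : e1 7 = 1 := by rw [h10] at hs; simpa using hs
  have key : eS (-(e1 3)) e1 = (![0, 0, 0, 0, 0, 0, 0, 1] : Fin 8 → F) := by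
    rw [eS_apply]
    apply ext8 <;> simp [fS, h10, h11, h12, h14, h15, h16, h7]
  rw [← key]
  exact r1.trans (rel_of_mem (eS_mem _) e1)

theorem idem_trans (e : Fin 8 → F) (he : IsIdem F e) :
    ∃ g ∈ AutO F, g (e0 F) = e := by
  obtain ⟨e1, r1, h10⟩ := kill0 he
  have hi1 := idem_of_rel he r1
  obtain ⟨e2, r2, h20, h24, h25, h26⟩ := killb hi1 h10
  have hi2 := idem_of_rel hi1 r2
  have r3 := kill_all hi2 h20 h24 h25 h26
  have key : eT (![0, 0, 0, 0, 0, 0, 0, 1] : Fin 8 → F) = e0 F := by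
    rw [eT_apply]
    apply ext8 <;> simp [fT, e0]
  have r4 : Rel e (e0 F) := by
    rw [← key]
    exact (r1.trans (r2.trans r3)).trans (rel_of_mem eT_mem _)
  exact r4.symm

end Cfsg.Agent.Lib.Helper49.G2Trans
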