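import Mathlib
import Cfsg.Agent.Lib.Lead.MaxStmt

set_option autoImplicit false

namespace Cfsg.Agent.Lib.Helper49.MaxDICH

open Equiv MulAction Cfsg.Agent.Lib.Lead.MaxStmt Cfsg.Agent.Lib.Lead.SylTwoSym
open scoped Pointwise

theorem exists_fifth {Ω : Type} [DecidableEq Ω] [Fintype Ω] (h5 : 5 ≤ Fintype.card Ω)
    (a b c d : Ω) : ∃ x, x ≠ a ∧ x ≠ b ∧ x ≠ c ∧ x ≠ d := by
  by_contra h
  push Not at h
  have hsub : (Finset.univ : Finset Ω) ⊆ {a, b, c, d} := by
    intro x _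
    by_cases h1 : x = a
    · simp [h1]
    by_cases h2 : x = b
    · simp [h2]
    by_cases h3 : x = c
    · simp [h3]
    have := h x h1 h2 h3
    simp [this]
  have h1 := Finset.card_le_card hsub
  have h2 : ({a, b, c, d} : Finset Ω).card ≤ 4 := Finset.card_le_four
  rw [Finset.card_univ] at h1
  omega

theorem condI_of_orbit {Ω : Type} [DecidableEq Ω] [Fintype Ω] (Q : Subgroup (Perm Ω))
    (ι : Ω → Ω) (hP : Pairing Q ι) (p q c : Ω) (hpq : ¬ ∃ g ∈ Q, g p = q) (hp : ι p ≠ p)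
    (hq : ι q ≠ q) (hc1 : c ≠ p) (hc2 : c ≠ ι p) (hc3 : c ≠ q) (hc4 : c ≠ ι q) : CondI Q := by
  refine ⟨ι, {y | ∃ g ∈ Q, g p = y}, p, q, c, hP, ?_, ⟨1, Q.one_mem, rfl⟩, ?_, hp, hpq, ?_, hq,
    hc1, hc2, hc3, hc4⟩
  · intro g hg
    left
    apply Set.Subset.antisymm
    · rintro z ⟨w, ⟨h, hh, rfl⟩, rfl⟩
      exact ⟨g * h, Q.mul_mem hg hh, rfl⟩
    · rintro z ⟨h, hh, rfl⟩
      refine ⟨(g⁻¹ * h) p, ⟨g⁻¹ * h, Q.mul_mem (Q.inv_mem hg) hh, rfl⟩, ?_⟩
      show g ((g⁻¹ * h) p) = h p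
      rw [Perm.mul_apply, Perm.coe_inv, Equiv.apply_symm_apply]
  · exact ⟨swap p (ι p), hP.swap_mem p hp, swap_apply_left p (ι p)⟩
  · rintro ⟨g, hg, hgp⟩
    apply hpq
    refine ⟨swap q (ι q) * g, Q.mul_mem (hP.swap_mem q hq) hg, ?_⟩
    rw [Perm.mul_apply, hgp, swap_apply_right]

theorem main : Cfsg.Agent.Lib.Lead.MaxStmt.Dichotomy := by
  intro hH Ω _ _ Q ι hP hQ h5
  by_cases hfix : ∃ u, ι u = u
  · obtain ⟨u, hu⟩ := hfix
    have hne : ∀ x, x ≠ u → ι x ≠ x := fun x hx h => hx (hP.fix_unique x u h hu)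
    have hne' : ∀ x, x ≠ u → u ≠ ι x := by
      intro x hx h
      apply hx
      have h1 : ι u = x := by rw [h, hP.invol]
      rw [← h1, hu]
    have hQu : ∀ g ∈ Q, g u = u := by
      intro g hg
      apply hP.fix_unique _ _ _ hu
      rw [← hP.comm g hg u, hu]
    by_cases htr : ∀ p q, p ≠ u → q ≠ u → ∃ g ∈ Q, g p = q
    · right; exact ⟨u, hQu, htr⟩
    · left
      push Not at htr
      obtain ⟨p, q, hp, hq, hpq⟩ := htr
      refine condI_of_orbit Q ι hP p q u ?_ (hne p hp) (hne q hq) (Ne.symm hp) (hne' p hp)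
        (Ne.symm hq) (hne' q hq)
      rintro ⟨g, hg, hgp⟩
      exact hpq g hg hgp
  · push Not at hfix
    by_cases htr : ∀ p q : Ω, ∃ g ∈ Q, g p = q
    · left
      obtain ⟨A, ⟨a, ha⟩, ⟨b, hb⟩, hA⟩ := hH Ω Q hQ htr (by omega)
      have key : ∀ s t : Ω, swap s t ∈ Q → (swap s t) • A = A := by
        intro s t hmem
        rcases hA _ hmem with h | h
        · exact h
        · exfalso
          obtain ⟨y, hy1, hy2, -, -⟩ := exists_fifth h5 s t s t
          have hy : swap s t y = y := swap_apply_of_ne_of_ne hy1 hy2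
          by_cases hyA : y ∈ A
          · have h1 : y ∈ (swap s t) • A := ⟨y, hyA, hy⟩
            rw [h] at h1
            exact h1 hyA
          · have h1 : y ∈ (swap s t) • A := by rw [h]; exact hyA
            obtain ⟨z, hz, hzy⟩ := h1
            have hzy' : swap s t z = y := hzy
            have h2 : z = y := by
              have h3 : swap s t (swap s t z) = swap s t y := congrArg _ hzy'
              rw [swap_apply_self, hy] at h3
              exact h3
            exact hyA (h2 ▸ hz)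
      have key2 : ∀ s t : Ω, swap s t ∈ Q → (s ∈ A ↔ t ∈ A) := by
        intro s t hmem
        have h := key s t hmem
        constructor
        · intro hs
          rw [← h]
          exact ⟨s, hs, swap_apply_left s t⟩
        · intro ht
          rw [← h]
          exact ⟨t, ht, swap_apply_right s t⟩
      obtain ⟨c, hc1, hc2, hc3, hc4⟩ := exists_fifth h5 a (ι a) b (ι b)
      refine ⟨ι, A, a, b, c, hP, hA, ha, ?_, hfix a, hb, ?_, hfix b, hc1, hc2, hc3, hc4⟩
      · exact (key2 a (ι a) (hP.swap_mem a (hfix a))).mp ha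
      · intro h
        exact hb ((key2 b (ι b) (hP.swap_mem b (hfix b))).mpr h)
    · left
      push Not at htr
      obtain ⟨p, q, hpq⟩ := htr
      obtain ⟨c, hc1, hc2, hc3, hc4⟩ := exists_fifth h5 p (ι p) q (ι q)
      refine condI_of_orbit Q ι hP p q c ?_ (hfix p) (hfix q) hc1 hc2 hc3 hc4
      rintro ⟨g, hg, hgp⟩
      exact hpq g hg hgp

end Cfsg.Agent.Lib.Helper49.MaxDICH
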