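import Mathlib
import Cfsg.Agent.Lib.Lead.MaxStmt

set_option autoImplicit false

namespace Cfsg.Agent.Lib.Helper49.MaxHALVES

open Equiv MulAction Cfsg.Agent.Lib.Lead.MaxStmt Cfsg.Agent.Lib.Lead.SylTwoSym
open scoped Pointwise

theorem main : Cfsg.Agent.Lib.Lead.MaxStmt.Halves := by
  intro Ω _ _ Q hQ htr hcard
  classical
  haveI : Fact (Nat.Prime 2) := ⟨Nat.prime_two⟩
  have hne : Nonempty Ω := by
    rw [← Fintype.card_pos_iff]; omega
  obtain ⟨x⟩ := hne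
  obtain ⟨y, hy⟩ : ∃ y : Ω, y ≠ x := by
    by_contra h
    push Not at h
    have : Fintype.card Ω ≤ 1 := Fintype.card_le_one_iff.mpr (fun a b => by rw [h a, h b])
    omega
  let S : Subgroup ↥Q :=
    { carrier := {g | (g : Perm Ω) x = x}
      one_mem' := rfl
      mul_mem' := by
        intro a b ha hb
        have ha' : (a : Perm Ω) x = x := ha
        have hb' : (b : Perm Ω) x = x := hb
        show ((a * b : ↥Q) : Perm Ω) x = x
        rw [Subgroup.coe_mul, Perm.mul_apply, hb', ha']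
      inv_mem' := by
        intro a ha
        have ha' : (a : Perm Ω) x = x := ha
        show ((a⁻¹ : ↥Q) : Perm Ω) x = x
        rw [Subgroup.coe_inv, Perm.inv_eq_iff_eq]
        exact ha'.symm }
  have hSmem : ∀ g : ↥Q, g ∈ S ↔ (g : Perm Ω) x = x := fun g => Iff.rfl
  obtain ⟨m, hm⟩ := IsPGroup.iff_card.mp hQ
  obtain ⟨n, hn⟩ := IsPGroup.iff_card.mp (hQ.to_subgroup S)
  have hSne : S ≠ ⊤ := by
    intro h
    obtain ⟨g, hg, hgx⟩ := htr x y
    have h1 : (⟨g, hg⟩ : ↥Q) ∈ S := by rw [h]; trivial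
    have h2 : g x = x := (hSmem _).mp h1
    exact hy (hgx.symm.trans h2)
  have hnm : n < m := by
    have h1 : Nat.card S < Nat.card ↥Q := by
      refine lt_of_le_of_ne (Subgroup.card_le_card_group S) ?_
      intro h
      exact hSne (Subgroup.eq_top_of_card_eq S h)
    rw [hm, hn] at h1
    exact (Nat.pow_lt_pow_iff_right (by norm_num)).mp h1
  obtain ⟨K, hKc, hSK⟩ := Sylow.exists_subgroup_card_pow_prime_le 2 (n := n) (m := m - 1)
    (by rw [hm]; exact pow_dvd_pow 2 (by omega)) S hn (by omega)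
  have hKi : K.index = 2 := by
    have h := K.card_mul_index
    rw [hKc, hm] at h
    have h2 : 2 ^ m = 2 ^ (m - 1) * 2 := by
      rw [← pow_succ]; congr 1; omega
    rw [h2] at h
    exact Nat.eq_of_mul_eq_mul_left (by positivity) h
  let A : Set Ω := {z | ∃ k : ↥Q, k ∈ K ∧ (k : Perm Ω) x = z}
  have hin : ∀ g : ↥Q, g ∈ K → (g : Perm Ω) • A = A := by
    intro g hg
    apply Set.Subset.antisymm
    · rintro z ⟨w, ⟨k, hk, rfl⟩, rfl⟩
      exact ⟨g * k, K.mul_mem hg hk, rfl⟩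
    · rintro z ⟨k, hk, rfl⟩
      refine ⟨((g⁻¹ * k : ↥Q) : Perm Ω) x, ⟨g⁻¹ * k, K.mul_mem (K.inv_mem hg) hk, rfl⟩, ?_⟩
      show (g : Perm Ω) (((g⁻¹ * k : ↥Q) : Perm Ω) x) = (k : Perm Ω) x
      rw [Subgroup.coe_mul, Subgroup.coe_inv, Perm.mul_apply, Perm.coe_inv, Equiv.apply_symm_apply]
  have hout : ∀ g : ↥Q, g ∉ K → (g : Perm Ω) • A = Aᶜ := by
    intro g hg
    apply Set.Subset.antisymm
    · rintro z ⟨w, ⟨k, hk, rfl⟩, rfl⟩ ⟨k', hk', hk'x⟩
      apply hg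
      have hk'x' : (k' : Perm Ω) x = (g : Perm Ω) ((k : Perm Ω) x) := hk'x
      have hs : k'⁻¹ * g * k ∈ S := by
        rw [hSmem, Subgroup.coe_mul, Subgroup.coe_mul, Subgroup.coe_inv, Perm.mul_apply,
          Perm.mul_apply, Perm.inv_eq_iff_eq]
        exact hk'x'.symm
      have h1 := hSK hs
      have h2 : g = k' * (k'⁻¹ * g * k) * k⁻¹ := by group
      rw [h2]
      exact K.mul_mem (K.mul_mem hk' h1) (K.inv_mem hk)
    · intro z hz
      obtain ⟨h, hh, hhx⟩ := htr x z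
      have hhK : (⟨h, hh⟩ : ↥Q) ∉ K := fun hc => hz ⟨⟨h, hh⟩, hc, hhx⟩
      have h2 : g⁻¹ * ⟨h, hh⟩ ∈ K := by
        rw [Subgroup.mul_mem_iff_of_index_two hKi]
        constructor
        · intro hc; exact absurd (K.inv_mem_iff.mp hc) hg
        · intro hc; exact absurd hc hhK
      refine ⟨((g⁻¹ * ⟨h, hh⟩ : ↥Q) : Perm Ω) x, ⟨_, h2, rfl⟩, ?_⟩
      show (g : Perm Ω) (((g⁻¹ * ⟨h, hh⟩ : ↥Q) : Perm Ω) x) = z
      rw [Subgroup.coe_mul, Subgroup.coe_inv, Perm.mul_apply, Perm.coe_inv, Equiv.apply_symm_apply]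
      exact hhx
  have hKne : ∃ g : ↥Q, g ∉ K := by
    by_contra h
    push Not at h
    have h1 : K = ⊤ := (Subgroup.eq_top_iff' K).mpr h
    rw [h1, Subgroup.index_top] at hKi
    omega
  obtain ⟨g0, hg0⟩ := hKne
  refine ⟨A, ⟨x, 1, K.one_mem, rfl⟩, ⟨(g0 : Perm Ω) x, ?_⟩, ?_⟩
  · rw [← hout g0 hg0]
    exact ⟨x, ⟨1, K.one_mem, rfl⟩, rfl⟩
  · intro g hg
    by_cases hgK : (⟨g, hg⟩ : ↥Q) ∈ K
    · left; exact hin ⟨g, hg⟩ hgK
    · right; exact hout ⟨g, hg⟩ hgK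

end Cfsg.Agent.Lib.Helper49.MaxHALVES
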