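import Mathlib
import Cfsg.Agent.Lib.Helper83.MclStmt

set_option autoImplicit false

namespace Cfsg.Agent.Lib.Helper49.MclOP

universe u v w

theorem pow_apply_eq {p : ℕ} [Fact p.Prime] {V : Type u} [AddCommGroup V] [Module (ZMod p) V]
    (g : V ≃ₗ[ZMod p] V) (x : V)
    (h3 : g (g (g x - x) - (g x - x)) = g (g x - x) - (g x - x)) (k : ℕ) :
    (g ^ k) x = x + k • (g x - x) + (k.choose 2) • (g (g x - x) - (g x - x)) := by
  induction k with
  | zero => simp
  | succ k ih =>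
    rw [pow_succ']
    change g ((g ^ k) x) = _
    rw [ih, map_add, map_add, map_nsmul, map_nsmul, h3]
    have hc : (k + 1).choose 2 = k + k.choose 2 := by
      rw [Nat.choose_succ_succ' k 1, Nat.choose_one_right]
    rw [hc, add_nsmul, add_nsmul, one_nsmul]
    have e1 : g x = x + (g x - x) := by abel
    have e2 : g (g x - x) = (g x - x) + (g (g x - x) - (g x - x)) := by abel
    generalize g (g x - x) - (g x - x) = d2 at e2 ⊢
    rw [e2]
    generalize g x - x = d1 at e1 ⊢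
    rw [e1, nsmul_add]
    abel

theorem main : Cfsg.Agent.Lib.Helper83.MclStmt.OP.{u} := by
  intro p _ V _ _ H hcore Z₁ Z₂ hZ1 hZ2 g hg h1 h2 h3
  have hp : p.Prime := Fact.out
  -- the subgroup of elements acting trivially on the factors of the flag
  let N : Subgroup ↥H :=
    { carrier := {g | (∀ x, (g : V ≃ₗ[ZMod p] V) x - x ∈ Z₂) ∧
        (∀ x ∈ Z₂, (g : V ≃ₗ[ZMod p] V) x - x ∈ Z₁) ∧ (∀ x ∈ Z₁, (g : V ≃ₗ[ZMod p] V) x = x)}
      one_mem' := by
        refine ⟨fun x => ?_, fun x _ => ?_, fun x _ => rfl⟩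
        · simp
        · simp
      mul_mem' := by
        rintro a b ⟨a1, a2, a3⟩ ⟨b1, b2, b3⟩
        refine ⟨fun x => ?_, fun x hx => ?_, fun x hx => ?_⟩
        · have : ((a * b : ↥H) : V ≃ₗ[ZMod p] V) x - x
              = ((a : V ≃ₗ[ZMod p] V) ((b : V ≃ₗ[ZMod p] V) x) - (b : V ≃ₗ[ZMod p] V) x)
                + ((b : V ≃ₗ[ZMod p] V) x - x) := by
            rw [Subgroup.coe_mul, LinearEquiv.mul_apply]; abel
          rw [this]
          exact Z₂.add_mem (a1 _) (b1 _)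
        · have : ((a * b : ↥H) : V ≃ₗ[ZMod p] V) x - x
              = ((a : V ≃ₗ[ZMod p] V) ((b : V ≃ₗ[ZMod p] V) x) - (b : V ≃ₗ[ZMod p] V) x)
                + ((b : V ≃ₗ[ZMod p] V) x - x) := by
            rw [Subgroup.coe_mul, LinearEquiv.mul_apply]; abel
          rw [this]
          exact Z₁.add_mem (a2 _ (hZ2 b b.2 x hx)) (b2 _ hx)
        · rw [Subgroup.coe_mul, LinearEquiv.mul_apply, b3 x hx, a3 x hx]
      inv_mem' := by
        rintro a ⟨a1, a2, a3⟩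
        have key : ∀ x, ((a⁻¹ : ↥H) : V ≃ₗ[ZMod p] V) x - x
            = -((a : V ≃ₗ[ZMod p] V) (((a⁻¹ : ↥H) : V ≃ₗ[ZMod p] V) x)
                - ((a⁻¹ : ↥H) : V ≃ₗ[ZMod p] V) x) := by
          intro x
          have : (a : V ≃ₗ[ZMod p] V) (((a⁻¹ : ↥H) : V ≃ₗ[ZMod p] V) x) = x := by
            rw [← LinearEquiv.mul_apply, ← Subgroup.coe_mul, mul_inv_cancel]; rfl
          rw [this]; abel
        refine ⟨fun x => ?_, fun x hx => ?_, fun x hx => ?_⟩
        · rw [key]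
          exact Z₂.neg_mem (a1 _)
        · rw [key]
          exact Z₁.neg_mem (a2 _ (hZ2 _ (a⁻¹).2 x hx))
        · have : ((a⁻¹ : ↥H) : V ≃ₗ[ZMod p] V) ((a : V ≃ₗ[ZMod p] V) x) = x := by
            rw [← LinearEquiv.mul_apply, ← Subgroup.coe_mul, inv_mul_cancel]; rfl
          rw [a3 x hx] at this
          exact this }
  have hNn : N.Normal := by
    constructor
    rintro a ⟨a1, a2, a3⟩ h
    have key : ∀ x, ((h * a * h⁻¹ : ↥H) : V ≃ₗ[ZMod p] V) x - x
        = (h : V ≃ₗ[ZMod p] V) ((a : V ≃ₗ[ZMod p] V) (((h⁻¹ : ↥H) : V ≃ₗ[ZMod p] V) x)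
            - ((h⁻¹ : ↥H) : V ≃ₗ[ZMod p] V) x) := by
      intro x
      have : (h : V ≃ₗ[ZMod p] V) (((h⁻¹ : ↥H) : V ≃ₗ[ZMod p] V) x) = x := by
        rw [← LinearEquiv.mul_apply, ← Subgroup.coe_mul, mul_inv_cancel]; rfl
      rw [map_sub, this, Subgroup.coe_mul, Subgroup.coe_mul, LinearEquiv.mul_apply,
        LinearEquiv.mul_apply]
    refine ⟨fun x => ?_, fun x hx => ?_, fun x hx => ?_⟩
    · rw [key]
      exact hZ2 h h.2 _ (a1 _)
    · rw [key]
      exact hZ1 h h.2 _ (a2 _ (hZ2 _ (h⁻¹).2 x hx))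
    · have hk := key x
      rw [a3 _ (hZ1 _ (h⁻¹).2 x hx), sub_self, map_zero] at hk
      exact sub_eq_zero.mp hk
  have hNp : IsPGroup p N := by
    rintro ⟨a, a1, a2, a3⟩
    refine ⟨2, ?_⟩
    apply Subtype.ext
    apply Subtype.ext
    rw [Subgroup.coe_pow, Subgroup.coe_pow, Subgroup.coe_one, Subgroup.coe_one]
    apply LinearEquiv.ext
    intro x
    have e3 : (a : V ≃ₗ[ZMod p] V) ((a : V ≃ₗ[ZMod p] V) ((a : V ≃ₗ[ZMod p] V) x - x)
        - ((a : V ≃ₗ[ZMod p] V) x - x))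
        = (a : V ≃ₗ[ZMod p] V) ((a : V ≃ₗ[ZMod p] V) x - x) - ((a : V ≃ₗ[ZMod p] V) x - x) :=
      a3 _ (a2 _ (a1 x))
    rw [pow_apply_eq (a : V ≃ₗ[ZMod p] V) x e3 (p ^ 2)]
    have z1 : ∀ y : V, (p ^ 2) • y = 0 := by
      intro y
      rw [pow_two, mul_nsmul, ZModModule.char_nsmul_eq_zero p]
    have z2 : ∀ y : V, ((p ^ 2).choose 2) • y = 0 := by
      intro y
      have hd : p ∣ (p ^ 2).choose 2 := by
        apply hp.dvd_choose_pow (by norm_num)
        intro h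
        have h4 : p ∣ 2 := by rw [h]; exact dvd_pow_self p (by norm_num)
        have h5 : p = 2 := (Nat.prime_dvd_prime_iff_eq hp Nat.prime_two).mp h4
        rw [h5] at h
        norm_num at h
      obtain ⟨m, hm⟩ := hd
      rw [hm, mul_nsmul, ZModModule.char_nsmul_eq_zero p, nsmul_zero]
    rw [z1, z2]
    simp
  have hle : N ≤ Cfsg.pCore p ↥H := le_sSup ⟨hNn, hNp⟩
  rw [hcore] at hle
  have hmem : (⟨g, hg⟩ : ↥H) ∈ N := ⟨h1, h2, h3⟩
  have := hle hmem
  rw [Subgroup.mem_bot] at this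
  exact congrArg Subtype.val this

end Cfsg.Agent.Lib.Helper49.MclOP
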