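import Mathlib
import Cfsg.Agent.Lib.Helper83.MclStmt

set_option autoImplicit false

namespace Cfsg.Agent.Lib.Helper49.MclTV

universe u v w

theorem main : Cfsg.Agent.Lib.Helper83.MclStmt.TV.{u} := by
  intro p _ V _ _ _ t ht hfin
  have hp : p.Prime := Fact.out
  haveI : Module.Finite (ZMod p) V := Module.Finite.of_finite
  have hrk := LinearMap.finrank_range_add_finrank_ker ((t : V →ₗ[ZMod p] V) - LinearMap.id)
  have hr1 : Module.finrank (ZMod p)
      ↥(LinearMap.range ((t : V →ₗ[ZMod p] V) - LinearMap.id)) ≤ 1 := by omega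
  have hmem : t ∈ LinearEquiv.dilatransvections (ZMod p) V :=
    LinearEquiv.mem_dilatransvections_iff_finrank.mpr hr1
  obtain ⟨f, v, hfv⟩ := hmem
  have happ : ∀ x, t x = x + f x • v := by
    intro x
    have := congrArg (fun g : V →ₗ[ZMod p] V => g x) hfv
    simpa [LinearMap.transvection.apply] using this
  have hne1 : t ≠ 1 := by
    intro h1
    rw [h1, orderOf_one] at ht
    exact hp.one_lt.ne ht
  have hf : f ≠ 0 := by
    intro h0
    apply hne1
    apply LinearEquiv.ext
    intro x
    rw [happ, h0]
    simp
  have hv : v ≠ 0 := by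
    intro h0
    apply hne1
    apply LinearEquiv.ext
    intro x
    rw [happ, h0]
    simp
  have hpow : ∀ k : ℕ, (t ^ k) v = (1 + f v) ^ k • v := by
    intro k
    induction k with
    | zero => simp
    | succ k ih =>
      rw [pow_succ']
      change t ((t ^ k) v) = _
      rw [ih, map_smul, happ v, pow_succ, mul_smul]
      congr 1
      rw [add_smul, one_smul]
  have hp1 : t ^ p = 1 := by
    have := pow_orderOf_eq_one t
    rw [ht] at this
    exact this
  have h0 : f v = 0 := by
    have h1 := hpow p
    rw [hp1, ZMod.pow_card] at h1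
    have h2 : (f v) • v = 0 := by
      have : (1 : V ≃ₗ[ZMod p] V) v = v := rfl
      rw [this, add_smul, one_smul] at h1
      exact (add_eq_left.mp h1.symm)
    exact (smul_eq_zero.mp h2).resolve_right hv
  refine ⟨f, v, h0, hf, hv, ?_⟩
  apply LinearEquiv.ext
  intro x
  rw [happ, LinearEquiv.transvection.apply]

end Cfsg.Agent.Lib.Helper49.MclTV
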