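import Mathlib
import Cfsg.Agent.Lib.Helper24.ConjAction

set_option autoImplicit false
set_option linter.unusedSectionVars false
set_option linter.unusedVariables false

/-!
Norm maps of automorphisms of exponent `p` of a commutative group, and the resulting
independence of the fixed-point subgroups of `x, zx, …, z^(p-1)x` when `z` is fixed-point-free.

Main results:
* `indep`: abstract independence statement;
* `card_pow_le`: if `y x y⁻¹ = z x` with `z` commuting with `x`, `y`, `x ^ p = 1` and the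
  nontrivial powers of `z` fixed-point-free on the abelian group `V` (without `p`-torsion), then
  `|C_V(x)| ^ p ≤ |V|`;
* `card_modEq_one`: a fixed-point-free element of order `p` forces `|V| ≡ 1 [MOD p]`.
-/

namespace Cfsg.Agent.Lib.Helper49.NormIndep

section abstract

variable {M : Type*} [CommGroup M]

/-- The norm of an automorphism (of exponent `p`). -/
def nrm (p : ℕ) (t : MulAut M) (x : M) : M := ∏ i ∈ Finset.range p, (t ^ i) x

theorem nrm_one (p : ℕ) (t : MulAut M) : nrm p t (1 : M) = 1 := by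
  simp [nrm]

theorem nrm_mul (p : ℕ) (t : MulAut M) (x y : M) : nrm p t (x * y) = nrm p t x * nrm p t y := by
  unfold nrm
  rw [← Finset.prod_mul_distrib]
  exact Finset.prod_congr rfl fun i _ => map_mul _ _ _

theorem nrm_inv (p : ℕ) (t : MulAut M) (x : M) : nrm p t x⁻¹ = (nrm p t x)⁻¹ := by
  unfold nrm
  rw [← Finset.prod_inv_distrib]
  exact Finset.prod_congr rfl fun i _ => map_inv _ _

theorem nrm_prod (p : ℕ) (t : MulAut M) {ι : Type*} (s : Finset ι) (f : ι → M) :
    nrm p t (∏ j ∈ s, f j) = ∏ j ∈ s, nrm p t (f j) := by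
  unfold nrm
  rw [Finset.prod_comm]
  exact Finset.prod_congr rfl fun i _ => map_prod _ _ _

/-- The norm as a homomorphism. -/
def nrmHom (p : ℕ) (t : MulAut M) : M →* M where
  toFun := nrm p t
  map_one' := nrm_one p t
  map_mul' := nrm_mul p t

theorem nrmHom_apply (p : ℕ) (t : MulAut M) (x : M) : nrmHom p t x = nrm p t x := rfl

theorem pow_apply_fixed (t : MulAut M) (x : M) (h : t x = x) (i : ℕ) : (t ^ i) x = x := by
  induction i with
  | zero => simp
  | succ i ih => rw [pow_succ, MulAut.mul_apply, h, ih]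

theorem nrm_fixed (p : ℕ) (t : MulAut M) (x : M) (h : t x = x) : nrm p t x = x ^ p := by
  unfold nrm
  rw [Finset.prod_congr rfl fun i _ => pow_apply_fixed t x h i, Finset.prod_const,
    Finset.card_range]

theorem apply_nrm (p : ℕ) (t : MulAut M) (ht : t ^ p = 1) (x : M) :
    t (nrm p t x) = nrm p t x := by
  unfold nrm
  rw [map_prod]
  have h1 : ∀ i ∈ Finset.range p, t ((t ^ i) x) = (t ^ (i + 1)) x := fun i _ => by
    rw [pow_succ', MulAut.mul_apply]
  rw [Finset.prod_congr rfl h1]
  have h2 := Finset.prod_range_succ' (fun i => (t ^ i) x) p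
  have h3 := Finset.prod_range_succ (fun i => (t ^ i) x) p
  rw [h2] at h3
  simp only [ht, pow_zero, MulAut.one_apply] at h3
  exact mul_right_cancel h3

theorem nrm_mul_fixed (p : ℕ) (d s : MulAut M) (hds : Commute d s) (x : M) (h : s x = x) :
    nrm p (d * s) x = nrm p d x := by
  unfold nrm
  refine Finset.prod_congr rfl fun i _ => ?_
  rw [hds.mul_pow, MulAut.mul_apply, pow_apply_fixed s x h]

theorem nrm_comm (p : ℕ) (c d : MulAut M) (h : Commute c d) (x : M) :
    nrm p c (d x) = d (nrm p c x) := by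
  unfold nrm
  rw [map_prod]
  refine Finset.prod_congr rfl fun i _ => ?_
  rw [← MulAut.mul_apply, ← MulAut.mul_apply, (h.pow_left i).eq]

/-- Independence of the fixed points of `a, c a, …, c^(p-1) a`. -/
theorem indep (p : ℕ) (a c : MulAut M) (hca : Commute c a) (ha : a ^ p = 1)
    (hc : c ^ p = 1) (hfix : ∀ m, 0 < m → m < p → ∀ x : M, (c ^ m) x = x → x = 1)
    (htor : ∀ x : M, x ^ p = 1 → x = 1) (v : ℕ → M)
    (hv : ∀ j < p, (c ^ j * a) (v j) = v j) (hprod : ∏ j ∈ Finset.range p, v j = 1) :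
    ∀ k < p, v k = 1 := by
  intro k hk
  have h1 : nrm p (c ^ k * a) (∏ j ∈ Finset.range p, v j) = 1 := by
    rw [hprod, nrm_one]
  rw [nrm_prod, Finset.prod_eq_single k] at h1
  · rw [nrm_fixed _ _ _ (hv k hk)] at h1
    exact htor _ h1
  · intro j hj hjk
    have hj' := Finset.mem_range.1 hj
    have e : c ^ k * a = c ^ (k + p - j) * (c ^ j * a) := by
      rw [← mul_assoc, ← pow_add]
      have : k + p - j + j = k + p := by omega
      rw [this, pow_add, hc, mul_one]
    have hcomm : Commute (c ^ (k + p - j)) (c ^ j * a) :=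
      ((Commute.refl c).pow_right j |>.mul_right hca).pow_left _
    rw [e, nrm_mul_fixed _ _ _ hcomm _ (hv j hj')]
    have hd : (c ^ (k + p - j)) ^ p = 1 := by
      rw [← pow_mul, mul_comm, pow_mul, hc, one_pow]
    have hfx := apply_nrm p (c ^ (k + p - j)) hd (v j)
    have e2 : c ^ (k + p - j) = c ^ ((k + p - j) % p) := pow_eq_pow_mod _ hc
    have hpos : 0 < (k + p - j) % p := by
      rcases Nat.lt_or_ge k j with h | h
      · have : (k + p - j) % p = k + p - j := Nat.mod_eq_of_lt (by omega)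
        omega
      · have h2 : k + p - j = (k - j) + p := by omega
        rw [h2, Nat.add_mod_right, Nat.mod_eq_of_lt (by omega)]
        omega
    have hlt : (k + p - j) % p < p := Nat.mod_lt _ (by omega)
    refine hfix _ hpos hlt _ ?_
    rw [← e2]
    exact hfx
  · intro hk'
    exact absurd (Finset.mem_range.2 hk) hk'

end abstract

section concrete

open Cfsg.Agent.Lib.Helper24.ConjAction

variable {G : Type*} [Group G]

/-- If `y x y⁻¹ = z x` with `z` commuting with `x` and `y`, `x ^ p = 1 = z ^ p`, the nontrivial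
powers of `z` fixed-point-free on the commutative subgroup `V` and `V` without `p`-torsion, then
`|C_V(x)| ^ p ≤ |V|`. -/
theorem card_pow_le [Finite G] (p : ℕ) (V : Subgroup G)
    (hV : ∀ a ∈ V, ∀ b ∈ V, a * b = b * a) {x y z : G}
    (hx : x ∈ Subgroup.normalizer (V : Set G)) (hy : y ∈ Subgroup.normalizer (V : Set G))
    (hz : z ∈ Subgroup.normalizer (V : Set G)) (hyx : y * x * y⁻¹ = z * x)
    (hzx : z * x = x * z) (hzy : z * y = y * z) (hxp : x ^ p = 1) (hzp : z ^ p = 1)
    (hfix : ∀ m, 0 < m → m < p → ∀ v ∈ V, z ^ m * v = v * z ^ m → v = 1)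
    (htor : ∀ v ∈ V, v ^ p = 1 → v = 1) :
    Nat.card ↥(V ⊓ Subgroup.centralizer ({x} : Set G)) ^ p ≤ Nat.card ↥V := by
  classical
  let _ : CommGroup ↥V :=
    { (inferInstance : Group ↥V) with mul_comm := fun a b => Subtype.ext (hV a a.2 b b.2) }
  let ρ : ↥(Subgroup.normalizer (V : Set G)) →* MulAut ↥V :=
    conjHom (Subgroup.normalizer (V : Set G)) V le_rfl
  have hρ : ∀ (g : ↥(Subgroup.normalizer (V : Set G))) (w : ↥V),
      ((ρ g w : ↥V) : G) = g * w * (g : G)⁻¹ := fun g w => rfl
  set a : MulAut ↥V := ρ ⟨x, hx⟩ with ha_def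
  set b : MulAut ↥V := ρ ⟨y, hy⟩ with hb_def
  set c : MulAut ↥V := ρ ⟨z, hz⟩ with hc_def
  have hca : Commute c a := by
    have h1 : Commute (⟨z, hz⟩ : ↥(Subgroup.normalizer (V : Set G))) ⟨x, hx⟩ :=
      Subtype.ext hzx
    exact h1.map ρ
  have hcb : Commute c b := by
    have h1 : Commute (⟨z, hz⟩ : ↥(Subgroup.normalizer (V : Set G))) ⟨y, hy⟩ :=
      Subtype.ext hzy
    exact h1.map ρ
  have hba : b * a = c * a * b := by
    rw [ha_def, hb_def, hc_def, ← map_mul, ← map_mul, ← map_mul]
    congr 1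
    apply Subtype.ext
    show y * x = z * x * y
    rw [← hyx]; group
  have ha : a ^ p = 1 := by
    rw [ha_def, ← map_pow]
    have : (⟨x, hx⟩ : ↥(Subgroup.normalizer (V : Set G))) ^ p = 1 := Subtype.ext (by simpa using hxp)
    rw [this, map_one]
  have hc : c ^ p = 1 := by
    rw [hc_def, ← map_pow]
    have : (⟨z, hz⟩ : ↥(Subgroup.normalizer (V : Set G))) ^ p = 1 := Subtype.ext (by simpa using hzp)
    rw [this, map_one]
  have hbj : ∀ j : ℕ, c ^ j * a * b ^ j = b ^ j * a := by
    intro j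
    induction j with
    | zero => simp
    | succ j ih =>
      calc c ^ (j + 1) * a * b ^ (j + 1) = c * (c ^ j * a * b ^ j) * b := by
            rw [pow_succ', pow_succ]; group
        _ = c * (b ^ j * a) * b := by rw [ih]
        _ = b ^ j * (c * a * b) := by
            rw [← mul_assoc c, (hcb.pow_right j).eq]; group
        _ = b ^ (j + 1) * a := by rw [← hba, pow_succ]; group
  have hfixM : ∀ m, 0 < m → m < p → ∀ v : ↥V, (c ^ m) v = v → v = 1 := by
    intro m hm0 hmp v hv
    have h1 : c ^ m = ρ (⟨z, hz⟩ ^ m) := (map_pow ρ _ m).symm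
    rw [h1] at hv
    have h2 := congrArg Subtype.val hv
    rw [hρ] at h2
    have h2' : z ^ m * (v : G) * (z ^ m)⁻¹ = (v : G) := by simpa using h2
    have h3 : z ^ m * (v : G) = (v : G) * z ^ m := by
      calc z ^ m * (v : G) = z ^ m * (v : G) * (z ^ m)⁻¹ * z ^ m := by group
        _ = (v : G) * z ^ m := by rw [h2']
    exact Subtype.ext (hfix m hm0 hmp _ v.2 h3)
  have htorM : ∀ v : ↥V, v ^ p = 1 → v = 1 := by
    intro v hv
    have h1 := congrArg Subtype.val hv
    exact Subtype.ext (htor _ v.2 (by simpa using h1))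
  have hCfix : ∀ u : ↥(V ⊓ Subgroup.centralizer ({x} : Set G)),
      a ⟨u, u.2.1⟩ = ⟨u, u.2.1⟩ := by
    intro u
    apply Subtype.ext
    rw [ha_def, hρ]
    show x * (u : G) * x⁻¹ = u
    have h1 := Subgroup.mem_centralizer_iff.1 u.2.2 x (Set.mem_singleton x)
    rw [h1]; group
  let F : (Fin p → ↥(V ⊓ Subgroup.centralizer ({x} : Set G))) → ↥V :=
    fun u => ∏ j : Fin p, (b ^ (j : ℕ)) ⟨u j, (u j).2.1⟩
  have hF : Function.Injective F := by
    intro u u' huu
    funext k
    let w : ℕ → ↥V := fun j =>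
      if h : j < p then (⟨u ⟨j, h⟩, (u ⟨j, h⟩).2.1⟩ : ↥V) * (⟨u' ⟨j, h⟩, (u' ⟨j, h⟩).2.1⟩ : ↥V)⁻¹
      else 1
    have hw : ∀ j, a (w j) = w j := by
      intro j
      by_cases h : j < p
      · simp only [w, dif_pos h, map_mul, map_inv, hCfix]
      · simp only [w, dif_neg h, map_one]
    have hv : ∀ j < p, (c ^ j * a) ((b ^ j) (w j)) = (b ^ j) (w j) := by
      intro j _
      rw [← MulAut.mul_apply, hbj j, MulAut.mul_apply, hw]
    have hprod : ∏ j ∈ Finset.range p, (b ^ j) (w j) = 1 := by
      rw [Finset.prod_range]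
      have h1 : ∀ j ∈ (Finset.univ : Finset (Fin p)), (b ^ (j : ℕ)) (w j) =
          (b ^ (j : ℕ)) ⟨u j, (u j).2.1⟩ * ((b ^ (j : ℕ)) ⟨u' j, (u' j).2.1⟩)⁻¹ := by
        intro j _
        simp only [w, dif_pos j.2, map_mul, map_inv, Fin.eta]
      rw [Finset.prod_congr rfl h1, Finset.prod_mul_distrib, Finset.prod_inv_distrib]
      show F u * (F u')⁻¹ = 1
      rw [huu, mul_inv_cancel]
    have hk := indep p a c hca ha hc hfixM htorM (fun j => (b ^ j) (w j)) hv hprod k k.2
    have hwk : w k = 1 := (EmbeddingLike.map_eq_one_iff (f := b ^ (k : ℕ))).1 hk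
    simp only [w, dif_pos k.2, Fin.eta] at hwk
    rw [mul_inv_eq_one] at hwk
    have h5 : ((u k : ↥(V ⊓ Subgroup.centralizer ({x} : Set G))) : G) = (u' k : G) :=
      congrArg (fun t : ↥V => (t : G)) hwk
    exact Subtype.ext h5
  have hcard := Nat.card_le_card_of_injective F hF
  rw [Nat.card_fun, Nat.card_fin] at hcard
  exact hcard

/-- A fixed-point-free element of exponent `p` normalizing `V` forces `|V| ≡ 1 [MOD p]`. -/
theorem card_modEq_one [Finite G] (p : ℕ) [Fact p.Prime] (V : Subgroup G) {z : G}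
    (hz : z ∈ Subgroup.normalizer (V : Set G)) (hzp : z ^ p = 1)
    (hfix : ∀ v ∈ V, z * v = v * z → v = 1) : Nat.card ↥V ≡ 1 [MOD p] := by
  classical
  let _ : Fintype ↥V := Fintype.ofFinite ↥V
  let σ : Equiv.Perm ↥V := MulAut.toPerm ↥V (conjAut V z hz)
  have hσ : σ ^ p ^ 1 = 1 := by
    rw [pow_one]
    ext v
    have h1 : ∀ i : ℕ, (((σ ^ i) v : ↥V) : G) = z ^ i * v * (z ^ i)⁻¹ := by
      intro i
      induction i with
      | zero => simp
      | succ i ih =>
        rw [pow_succ', Equiv.Perm.mul_apply]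
        show z * (((σ ^ i) v : ↥V) : G) * z⁻¹ = _
        rw [ih, pow_succ']; group
    rw [h1 p, hzp]; simp
  have h2 := Equiv.Perm.card_compl_support_modEq hσ
  have h3 : σ.supportᶜ = {1} := by
    ext v
    rw [Finset.mem_compl, Equiv.Perm.mem_support, not_not, Finset.mem_singleton]
    constructor
    · intro hv
      have h4 : z * (v : G) * z⁻¹ = (v : G) := congrArg Subtype.val hv
      apply Subtype.ext
      apply hfix _ v.2
      calc z * (v : G) = z * (v : G) * z⁻¹ * z := by group
        _ = (v : G) * z := by rw [h4]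
    · rintro rfl
      exact map_one (conjAut V z hz)
  rw [h3, Finset.card_singleton] at h2
  rw [Nat.card_eq_fintype_card]
  exact h2.symm

end concrete

end Cfsg.Agent.Lib.Helper49.NormIndep
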