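import Mathlib
import Cfsg.Agent.Lib.Helper75.OTStmt
import Cfsg.Agent.Lib.Helper75.BlockRed

set_option autoImplicit false

namespace Cfsg.Agent.Lib.Helper49.OtBRW

open Cfsg Module Cfsg.Agent.Lib.Helper77.LocalRing Cfsg.Agent.Lib.Helper77.BlockIdem
  Cfsg.Agent.Lib.Helper77.BPBasic Cfsg.Agent.Lib.Helper75.TwoChar
  Cfsg.Agent.Lib.Helper75.BlockAlg Cfsg.Agent.Lib.Helper75.OTStmt
  Cfsg.Agent.Lib.Helper75.GrpAlg

universe u

open Classical in
theorem coeff_mapDomain_subtype {G : Type u} [Group G] {k : Type*} [Semiring k]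
    (C : Subgroup G) (w : MonoidAlgebra k C) (g : G) :
    (MonoidAlgebra.mapDomain (C.subtype : C → G) w).coeff g
      = if h : g ∈ C then w.coeff ⟨g, h⟩ else 0 := by
  show (Finsupp.mapDomain (C.subtype : C → G) w.coeff) g = _
  split_ifs with h
  · exact Finsupp.mapDomain_apply Subtype.val_injective w.coeff ⟨g, h⟩
  · apply Finsupp.mapDomain_notin_range
    rintro ⟨c, rfl⟩
    exact h c.2

/-- [BRW] -/
theorem main : BRW.{u} := by
  intro G _ _ M hMp F _ q hqs C c ε' hε' V hV
  classical
  have := Fintype.ofFinite G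
  have : Fintype C := Fintype.ofFinite C
  let εC : MonoidAlgebra (localSubring M hMp) C :=
    MonoidAlgebra.ofCoeff (Finsupp.equivFunOnFinite.symm fun h : C => ε'.coeff (h : G))
  have hεCcoeff : ∀ h : C, εC.coeff h = ε'.coeff (h : G) := fun h => rfl
  have hincl : incl hMp εC = blockIdem c := by
    apply MonoidAlgebra.ext
    ext h
    rw [coeff_incl, hεCcoeff, ← coeff_incl, hε', coeff_ext_of_mem]
  have hsupp : ∀ g : G, g ∉ C → ε'.coeff g = 0 := by
    intro g hg
    have h1 : (incl hMp ε').coeff g = 0 := by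
      rw [hε']; exact coeff_ext_of_not_mem C _ hg
    rw [coeff_incl] at h1
    exact Subtype.ext h1
  let ι : MonoidAlgebra F C →ₐ[F] MonoidAlgebra F G :=
    MonoidAlgebra.mapDomainAlgHom F F C.subtype
  have hιapp : ∀ w, ι w = MonoidAlgebra.mapDomain (C.subtype : C → G) w := fun w => rfl
  have hιinj : Function.Injective ι := by
    intro a b hab
    rw [hιapp, hιapp] at hab
    exact MonoidAlgebra.mapDomain_injective Subtype.val_injective hab
  have hιē : ι (MonoidAlgebra.mapRingHom C q εC) = MonoidAlgebra.mapRingHom G q ε' := by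
    apply MonoidAlgebra.ext
    ext g
    rw [hιapp, coeff_mapDomain_subtype, MonoidAlgebra.coeff_mapRingHom]
    split_ifs with h
    · rw [MonoidAlgebra.coeff_mapRingHom, hεCcoeff]
    · rw [hsupp g h, map_zero]
  have hιsingle : ∀ y : C,
      ι (MonoidAlgebra.single y (1 : F)) = MonoidAlgebra.single (y : G) (1 : F) := by
    intro y
    rw [hιapp, MonoidAlgebra.mapDomain_single]
    rfl
  have hle : V.comap ι.toLinearMap ≤ centE F (MonoidAlgebra.mapRingHom C q εC) := by
    intro w hw
    have hwV : ι w ∈ V := hw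
    obtain ⟨-, h2, h3⟩ := hV _ hwV
    refine ⟨?_, ?_⟩
    · apply central_of_comm_single
      intro y
      apply hιinj
      rw [map_mul, map_mul, hιsingle]
      exact (h2 y y.2).symm
    · apply hιinj
      rw [map_mul, hιē]
      exact h3
  have hrange : V ≤ LinearMap.range ι.toLinearMap := by
    intro v hv
    obtain ⟨h1, -, -⟩ := hV v hv
    refine ⟨MonoidAlgebra.ofCoeff
      (Finsupp.equivFunOnFinite.symm fun h : C => v.coeff (h : G)), ?_⟩
    apply MonoidAlgebra.ext
    ext g
    show (ι _).coeff g = _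
    rw [hιapp, coeff_mapDomain_subtype]
    split_ifs with h
    · rfl
    · exact (h1 g h).symm
  haveI : Module.Finite F (MonoidAlgebra F C) :=
    Module.Finite.equiv (MonoidAlgebra.coeffLinearEquiv (R := F) (S := F) (M := C)).symm
  have h1 : Module.finrank F V = Module.finrank F (V.comap ι.toLinearMap) := by
    conv_lhs => rw [← Submodule.map_comap_eq_self hrange]
    exact (Submodule.equivMapOfInjective ι.toLinearMap hιinj _).finrank_eq.symm
  rw [h1]
  exact (Submodule.finrank_mono hle).trans
    (Cfsg.Agent.Lib.Helper75.BlockRed.finrank_centE_le hMp q hqs c εC hincl)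

end Cfsg.Agent.Lib.Helper49.OtBRW
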