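import Mathlib
import Cfsg.Agent.Lib.Helper87.PCStmt

/-!
S5243, piece INVD: the subsystem `D` is invariant under `Aut_F(S)`.
-/

set_option autoImplicit false

namespace Cfsg.Agent.Lib.Helper49.PCINVD

open Cfsg Cfsg.FusionSystem Cfsg.Agent.H85 Cfsg.Agent.Lib.Helper87.PCStmt

universe u

theorem main : InvD.{u} := by
  intro Ω _ S T _ p _ F E K c hH
  apply invCond_of_le_invSys
  have hle : c.D ≤ invSys c.D (F.autGroup S) := by
    apply c.D_min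
    intro Q hQ φ hφ
    refine ⟨hφ, fun hQS α hα => ?_⟩
    have hφF : φ ∈ F.Hom Q := c.D_le_F Q hφ
    have hφB : φ ∈ c.B.Hom Q := c.D_le_B Q hφ
    have hφS : ∀ x, φ x ∈ S := (F.le_of_mem hφF).2
    have hαF : S.subtype.comp α.toMonoidHom ∈ F.Hom S := (mem_autGroup_iff F le_rfl α).mp hα
    have he : IsIso F (autRes α hQS) := isIso_autRes F le_rfl hα hQS
    have hQ' : autImage α Q ∈ famH F E := hH Q _ hQ (isConj_of_isIso F he)
    obtain ⟨χ, hχdef⟩ : ∃ χ : autImage α Q →* Ω, ∀ y,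
        χ y = ((α ⟨φ ((autRes α hQS).symm y), hφS _⟩ : S) : Ω) :=
      ⟨((S.subtype.comp α.toMonoidHom).comp (φ.codRestrict S hφS)).comp
        (autRes α hQS).symm.toMonoidHom, fun y => rfl⟩
    have hχe : ∀ x : Q, χ (autRes α hQS x) = ((α ⟨φ x, hφS x⟩ : S) : Ω) := by
      intro x
      rw [hχdef]
      have e1 : (autRes α hQS).symm (autRes α hQS x) = x := (autRes α hQS).symm_apply_apply x
      rw [e1]
    have hψF : (S.subtype.comp α.toMonoidHom).comp (φ.codRestrict S hφS) ∈ F.Hom Q :=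
      comp_mem' F hφF hαF hφS (fun x => rfl)
    have hχF : χ ∈ F.Hom (autImage α Q) := by
      refine comp_mem' F (isIso_symm F he) hψF (fun y => ((autRes α hQS).symm y).2) (fun y => ?_)
      rw [hχdef]
      rfl
    obtain ⟨γ, hγ, hγα⟩ := exists_resT F c.hT hα
    have hχB : χ ∈ c.B.Hom (autImage α Q) := by
      rw [c.mem_B_iff]
      refine ⟨hχF, fun R hRQ' hRT => ?_⟩
      have hR0T : autImage γ⁻¹ R ≤ T := autImage_le γ⁻¹ R
      -- elements of `R` pulled back along `γ`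
      have hpull : ∀ x : R, ∃ (t : T) (ht : (t : Ω) ∈ Q), (t : Ω) ∈ autImage γ⁻¹ R ∧
          γ t = ⟨x, hRT x.2⟩ ∧ (autRes α hQS).symm ⟨x, hRQ' x.2⟩ = ⟨t, ht⟩ := by
        intro x
        have ht : γ (γ⁻¹ ⟨x, hRT x.2⟩) = ⟨x, hRT x.2⟩ := MulAut.apply_inv_self _ γ _
        obtain ⟨q, hq⟩ := exists_of_mem_autImage α hQS (hRQ' x.2)
        have h1 : (⟨((γ⁻¹ ⟨x, hRT x.2⟩ : T) : Ω), c.hT.1 (γ⁻¹ ⟨x, hRT x.2⟩).2⟩ : S) =
            ⟨q, hQS q.2⟩ := by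
          apply α.injective
          apply Subtype.ext
          rw [hq, ← hγα, ht]
        have h2 : ((γ⁻¹ ⟨x, hRT x.2⟩ : T) : Ω) = q := congrArg Subtype.val h1
        have h3 : ((γ⁻¹ ⟨x, hRT x.2⟩ : T) : Ω) ∈ Q := by rw [h2]; exact q.2
        refine ⟨γ⁻¹ ⟨x, hRT x.2⟩, h3, mem_autImage γ⁻¹ hRT x, ht, ?_⟩
        rw [MulEquiv.symm_apply_eq]
        apply Subtype.ext
        rw [coe_autRes]
        show (x : Ω) = ((α ⟨((γ⁻¹ ⟨x, hRT x.2⟩ : T) : Ω), _⟩ : S) : Ω)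
        rw [← hγα, ht]
      have hR0Q : autImage γ⁻¹ R ≤ Q := by
        intro y hy
        obtain ⟨r, hr⟩ := exists_of_mem_autImage γ⁻¹ hRT hy
        obtain ⟨t, ht, -, htγ, -⟩ := hpull r
        have h1 : γ⁻¹ ⟨r, hRT r.2⟩ = t := by
          rw [← htγ, MulAut.inv_apply_self]
        rw [← hr, h1]
        exact ht
      obtain ⟨κ, hκ, e0, he0, hφκ⟩ := ((c.mem_B_iff φ).mp hφB).2 _ hR0Q hR0T
      have he0T : ∀ x, e0 x ∈ T := (E.le_of_mem he0).2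
      obtain ⟨χ₁, hχ₁, hχ₁x⟩ := c.hinv _ hR0T e0 he0 γ hγ
      have hR : R ≤ autImage γ (autImage γ⁻¹ R) := by
        intro r hr
        obtain ⟨t, ht, htR0, htγ, -⟩ := hpull ⟨r, hr⟩
        refine ⟨t, Subgroup.mem_subgroupOf.mpr htR0, ?_⟩
        show ((γ t : T) : Ω) = r
        rw [htγ]
      refine ⟨γ * κ * γ⁻¹, c.hKn γ hγ κ hκ, χ₁.comp (Subgroup.inclusion hR),
        restrict_mem E hχ₁ hR, fun x hx => ?_⟩
      obtain ⟨t, ht, htR0, htγ, hts⟩ := hpull x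
      have hγx : ((γ ⟨((⟨(t : Ω), htR0⟩ : autImage γ⁻¹ R) : Ω), hR0T htR0⟩ : T) : Ω) ∈
          (((autImage γ⁻¹ R).subgroupOf T).map (T.subtype.comp γ.toMonoidHom)) :=
        mem_autImage γ hR0T ⟨(t : Ω), htR0⟩
      have h1 := hχ₁x ⟨(t : Ω), htR0⟩ (he0T _) hγx
      have e1 : Subgroup.inclusion hR x =
          ⟨((γ ⟨((⟨(t : Ω), htR0⟩ : autImage γ⁻¹ R) : Ω), hR0T htR0⟩ : T) : Ω), hγx⟩ := by
        apply Subtype.ext
        show (x : Ω) = ((γ t : T) : Ω)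
        rw [htγ]
      have e2 : (⟨(χ₁.comp (Subgroup.inclusion hR)) x, hx⟩ : T) =
          γ ⟨e0 ⟨(t : Ω), htR0⟩, he0T _⟩ := by
        apply Subtype.ext
        show χ₁ (Subgroup.inclusion hR x) = _
        rw [e1, h1]
      have h2 := hφκ ⟨(t : Ω), htR0⟩ (he0T _)
      have e3 : κ ⟨e0 ⟨(t : Ω), htR0⟩, he0T _⟩ =
          ⟨φ ⟨(t : Ω), ht⟩, by
            have := (κ ⟨e0 ⟨(t : Ω), htR0⟩, he0T _⟩).2
            rw [← h2] at this
            exact this⟩ := by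
        apply Subtype.ext
        exact h2.symm
      show χ (Subgroup.inclusion hRQ' x) = (((γ * κ * γ⁻¹) ⟨_, hx⟩ : T) : Ω)
      rw [e2]
      show χ (Subgroup.inclusion hRQ' x) = ((γ (κ (γ⁻¹ (γ ⟨e0 ⟨(t : Ω), htR0⟩, he0T _⟩))) : T) : Ω)
      rw [MulAut.inv_apply_self, e3, hγα, hχdef]
      have e4 : (autRes α hQS).symm (Subgroup.inclusion hRQ' x) = ⟨(t : Ω), ht⟩ := hts
      rw [e4]
    refine ⟨χ, c.mem_D_of_mem_B hQ' hχB, fun x hφx => hχe x⟩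
  exact hle

end Cfsg.Agent.Lib.Helper49.PCINVD
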