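import Mathlib
import Cfsg.Agent.Lib.Helper32.S9Stmt
import Cfsg.Agent.Lib.CT.FrobRec
import Cfsg.Agent.Lib.CT.LinChar
import Cfsg.Agent.Lib.Helper3.Irr
import Cfsg.Agent.Lib.Helper49.S9EXCB

/-! S3805 piece VY1. -/

set_option autoImplicit false

namespace Cfsg.Agent.Lib.Helper49.S9VY1

open Cfsg Cfsg.Agent.Lib.CT
open Cfsg.Agent.Lib.Helper32 Cfsg.Agent.Lib.Helper3.Irr
open scoped ComplexConjugate

universe u

theorem sum_phi_conj_lam {G : Type u} [Group G] [Fintype G] {T N : Subgroup G} {x y a b : G}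
    (hc : S9Stmt.Cfg T N x y a b) (f' : Subgroup.centralizer ({y} : Set G) →* ℂˣ)
    (hf' : S9Stmt.Om y x a f') (lam : G → ℂ) (hl : S9Stmt.Lam x y a b lam)
    [Fintype (Subgroup.centralizer ({y} : Set G))] :
    ∑ h : Subgroup.centralizer ({y} : Set G), S9Stmt.phi y f' h * conj (lam h) = 0 := by
  have hlc : IsCharacter G lam := IsIrrCharacter.isCharacter hl.irr
  obtain ⟨F, hF⟩ := LinChar.exists_hom_of_isCharacter lam hlc hl.one
  have haC : a ∈ Subgroup.centralizer ({y} : Set G) :=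
    Subgroup.mem_centralizer_singleton_iff.mpr hc.ay
  have hFa : ((F a : ℂˣ) : ℂ) = -1 := by rw [← hF, hl.va]
  have hK : ∀ h : Subgroup.centralizer ({y} : Set G),
      conj (lam h) = ((((F.comp (Subgroup.subtype _))⁻¹ :
        Subgroup.centralizer ({y} : Set G) →* ℂˣ) h : ℂˣ) : ℂ) := by
    intro h
    rw [← LinChar.linear_apply_inv_eq_conj hlc hl.one, hF]
    simp
  have hK1 : ((F.comp (Subgroup.subtype _))⁻¹ :
      Subgroup.centralizer ({y} : Set G) →* ℂˣ) ≠ 1 := by
    intro h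
    have h1 := DFunLike.congr_fun h ⟨a, haC⟩
    have h2 : ((((F.comp (Subgroup.subtype _))⁻¹ :
        Subgroup.centralizer ({y} : Set G) →* ℂˣ) ⟨a, haC⟩ : ℂˣ) : ℂ) = 1 := by
      rw [h1]
      simp
    simp only [MonoidHom.inv_apply, MonoidHom.comp_apply, Subgroup.subtype_apply,
      Units.val_inv_eq_inv_val] at h2
    rw [hFa] at h2
    norm_num at h2
  have hfK1 : f' * ((F.comp (Subgroup.subtype _))⁻¹ :
      Subgroup.centralizer ({y} : Set G) →* ℂˣ) ≠ 1 := by
    intro h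
    have h1 := DFunLike.congr_fun h ⟨a, haC⟩
    have h2 : (((f' * ((F.comp (Subgroup.subtype _))⁻¹ :
        Subgroup.centralizer ({y} : Set G) →* ℂˣ)) ⟨a, haC⟩ : ℂˣ) : ℂ) = 1 := by
      rw [h1]
      simp
    rw [MonoidHom.mul_apply, hf'.fb haC] at h2
    simp only [MonoidHom.inv_apply, MonoidHom.comp_apply, Subgroup.subtype_apply,
      Units.val_inv_eq_inv_val, one_mul] at h2
    rw [hFa] at h2
    norm_num at h2
  have e1 := S9EXCB.sum_hom_coe _ hK1
  have e2 := S9EXCB.sum_hom_coe _ hfK1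
  have hterm : ∀ h : Subgroup.centralizer ({y} : Set G),
      S9Stmt.phi y f' h * conj (lam h) =
        ((((F.comp (Subgroup.subtype _))⁻¹ :
          Subgroup.centralizer ({y} : Set G) →* ℂˣ) h : ℂˣ) : ℂ) -
        (((f' * ((F.comp (Subgroup.subtype _))⁻¹ :
          Subgroup.centralizer ({y} : Set G) →* ℂˣ)) h : ℂˣ) : ℂ) := by
    intro h
    rw [hK h]
    unfold S9Stmt.phi
    rw [MonoidHom.mul_apply, Units.val_mul]
    ring
  rw [Finset.sum_congr rfl (fun h _ => hterm h), Finset.sum_sub_distrib, e1, e2, sub_zero]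

theorem main : S9Stmt.VY1.{u} := by
  intro G _ _ T N x y a b hc f' hf' lam hl
  classical
  haveI : Fintype (Subgroup.centralizer ({y} : Set G)) := Fintype.ofFinite _
  unfold S9Stmt.exc
  rw [FrobRec.frobenius_reciprocity _ _ _ (IsIrrCharacter.isClassFunction hl.irr)]
  unfold classInner
  rw [sum_phi_conj_lam hc f' hf' lam hl, mul_zero]

end Cfsg.Agent.Lib.Helper49.S9VY1
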