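import Mathlib
import Cfsg.Agent.Lib.Helper32.S9Stmt
import Cfsg.Agent.Lib.Helper32.S9Exc
import Cfsg.Agent.Lib.CT.FrobRec
import Cfsg.Agent.Lib.Helper3.Irr
import Cfsg.Agent.Lib.Helper49.S9VY1

/-! S3805 piece VY2. -/

set_option autoImplicit false

namespace Cfsg.Agent.Lib.Helper49.S9VY2

open Cfsg Cfsg.Agent.Lib.CT
open Cfsg.Agent.Lib.Helper32 Cfsg.Agent.Lib.Helper3.Irr
open scoped ComplexConjugate

universe u

theorem main : S9Stmt.VY2.{u} := by
  intro G _ _ T N x y a b hc f' hf' lam hl
  classical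
  haveI : Fintype (Subgroup.centralizer ({y} : Set G)) := Fintype.ofFinite _
  have hexc : IsClassFunction G (S9Stmt.exc y f') := FrobRec.indFun_isClassFunction _ _
  have hcl : IsClassFunction G (fun g => lam g * S9Stmt.exc y f' g) := by
    intro g h
    show lam (h * g * h⁻¹) * S9Stmt.exc y f' (h * g * h⁻¹) = lam g * S9Stmt.exc y f' g
    rw [IsIrrCharacter.isClassFunction hl.irr g h, hexc g h]
  have e3 := Cfsg.Agent.Lib.Helper32.S9Exc.exc3_piece hc.swap f' hf'
  have key : classInner (S9Stmt.exc y f') (fun g => lam g * S9Stmt.exc y f' g) =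
      classInner (S9Stmt.phi y f')
        (fun h : Subgroup.centralizer ({y} : Set G) => lam h * S9Stmt.exc y f' h) :=
    FrobRec.frobenius_reciprocity _ _ _ hcl
  rw [key]
  unfold classInner
  have hterm : ∀ h : Subgroup.centralizer ({y} : Set G),
      S9Stmt.phi y f' h * conj (lam h * S9Stmt.exc y f' h) =
        3 * (S9Stmt.phi y f' h * conj (lam h)) := by
    intro h
    by_cases hf1 : f' h = 1
    · have h0 : S9Stmt.phi y f' h = 0 := by
        unfold S9Stmt.phi
        rw [hf1]
        simp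
      rw [h0]
      simp
    · rw [e3 h h.2 hf1, map_mul, map_ofNat]
      ring
  rw [Finset.sum_congr rfl (fun h _ => hterm h), ← Finset.mul_sum,
    S9VY1.sum_phi_conj_lam hc f' hf' lam hl]
  simp

end Cfsg.Agent.Lib.Helper49.S9VY2
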