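import Mathlib
import Cfsg.Agent.Lib.Helper32.S9Stmt
import Cfsg.Agent.Lib.Helper32.S9NF
import Cfsg.Agent.Lib.Helper32.S9Grp
import Cfsg.Agent.Lib.Helper32.S9Exc
import Cfsg.Agent.Lib.CT.LinChar
import Cfsg.Agent.Lib.CT.Ops
import Cfsg.Agent.Lib.CT.Wedderburn
import Cfsg.Agent.Lib.Helper3.Irr
import Cfsg.Agent.Lib.Helper3.Orth
import Cfsg.Agent.Lib.Helper26.GenChar
import Cfsg.Agent.Lib.Helper49.S9VY1
import Cfsg.Agent.Lib.Helper49.S9VY2
import Cfsg.Agent.Lib.Helper49.S9VY3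
import Cfsg.Agent.Lib.Helper49.S9INT3

/-! S3805 piece VALY. -/

set_option autoImplicit false

namespace Cfsg.Agent.Lib.Helper49.S9VALY

open Cfsg Cfsg.Agent.Lib.CT
open Cfsg.Agent.Lib.Helper32 Cfsg.Agent.Lib.Helper3.Irr Cfsg.Agent.Lib.Helper26
open scoped ComplexConjugate

universe u

theorem ne_of_apply_one {G : Type u} [Group G] {A B : IrrCharacter G}
    (h : (A : G → ℂ) 1 ≠ (B : G → ℂ) 1) : A ≠ B := fun e => h (by rw [e])

set_option maxHeartbeats 1000000 in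
theorem main : S9Stmt.VALY.{u} := by
  intro G _ _ T N x y a b hc f' hf' lam hl X' X'' hX' hX'' hr hdeg hX't hX''t
  classical
  have hs := hc.swap
  have hlc : IsCharacter G lam := IsIrrCharacter.isCharacter hl.irr
  have hy : y ∈ Subgroup.centralizer ({y} : Set G) := S9Grp.x_mem_cent
  obtain ⟨n, hn, hn1⟩ := IsIrrCharacter.exists_apply_one_pos hX''
  have hn0 : (n : ℂ) ≠ 0 := Nat.cast_ne_zero.mpr hn.ne'
  -- the six irreducible characters
  obtain ⟨t₀, ht₀⟩ : ∃ t₀ : IrrCharacter G, (t₀ : G → ℂ) = S9Stmt.triv G :=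
    ⟨⟨fun _ => (1 : ℂ), Ops.isIrrCharacter_one⟩, rfl⟩
  obtain ⟨L, hL⟩ : ∃ L : IrrCharacter G, (L : G → ℂ) = lam := ⟨⟨lam, hl.irr⟩, rfl⟩
  obtain ⟨P, hP⟩ : ∃ P : IrrCharacter G, (P : G → ℂ) = X' := ⟨⟨X', hX'⟩, rfl⟩
  obtain ⟨Q, hQ⟩ : ∃ Q : IrrCharacter G, (Q : G → ℂ) = X'' := ⟨⟨X'', hX''⟩, rfl⟩
  obtain ⟨LP, hLP⟩ : ∃ LP : IrrCharacter G, (LP : G → ℂ) = lam * X' :=
    ⟨⟨lam * X', LinChar.isIrrCharacter_linear_mul hlc hl.one hX'⟩, rfl⟩
  obtain ⟨LQ, hLQ⟩ : ∃ LQ : IrrCharacter G, (LQ : G → ℂ) = lam * X'' :=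
    ⟨⟨lam * X'', LinChar.isIrrCharacter_linear_mul hlc hl.one hX''⟩, rfl⟩
  -- function identities
  have hrfun : S9Stmt.exc y f' = (t₀ : G → ℂ) - (P : G → ℂ) + (Q : G → ℂ) := by
    funext g
    rw [ht₀, hP, hQ]
    simp [S9Stmt.triv, hr g]
  have hlrfun : (fun g => lam g * S9Stmt.exc y f' g) =
      (L : G → ℂ) - (LP : G → ℂ) + (LQ : G → ℂ) := by
    funext g
    rw [hL, hLP, hLQ]
    simp only [Pi.add_apply, Pi.sub_apply, Pi.mul_apply, hr g]
    ring
  have h1lrfun : (fun g => (1 + lam g) * S9Stmt.exc y f' g) =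
      ((t₀ : G → ℂ) - (P : G → ℂ) + (Q : G → ℂ)) +
        ((L : G → ℂ) - (LP : G → ℂ) + (LQ : G → ℂ)) := by
    funext g
    rw [ht₀, hL, hP, hQ, hLP, hLQ]
    simp only [Pi.add_apply, Pi.sub_apply, Pi.mul_apply, hr g, S9Stmt.triv]
    ring
  -- degrees
  have ht1 : (t₀ : G → ℂ) 1 = 1 := by rw [ht₀]; rfl
  have hL1 : (L : G → ℂ) 1 = 1 := by rw [hL]; exact hl.one
  have hP1 : (P : G → ℂ) 1 = n + 1 := by rw [hP, hdeg, hn1]
  have hQ1 : (Q : G → ℂ) 1 = n := by rw [hQ, hn1]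
  have hLP1 : (LP : G → ℂ) 1 = n + 1 := by
    rw [hLP, Pi.mul_apply, hl.one, hdeg, hn1, one_mul]
  have hLQ1 : (LQ : G → ℂ) 1 = n := by
    rw [hLQ, Pi.mul_apply, hl.one, hn1, one_mul]
  -- distinctness, first round
  have d_tL : t₀ ≠ L := by
    intro e
    have h1 := congrFun (congrArg Subtype.val e) a
    rw [ht₀, hL, hl.va] at h1
    simp only [S9Stmt.triv] at h1
    norm_num at h1
  have d_tP : t₀ ≠ P := fun e => hX't (by rw [← hP, ← ht₀, e])
  have d_tQ : t₀ ≠ Q := fun e => hX''t (by rw [← hQ, ← ht₀, e])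
  have d_tLP : t₀ ≠ LP := ne_of_apply_one (by
    rw [ht1, hLP1]
    intro h
    apply hn0
    linear_combination -h)
  have d_PQ : P ≠ Q := ne_of_apply_one (by
    rw [hP1, hQ1]
    intro h
    have h2 : (1 : ℂ) = 0 := by linear_combination h
    exact one_ne_zero h2)
  have d_PLQ : P ≠ LQ := ne_of_apply_one (by
    rw [hP1, hLQ1]
    intro h
    have h2 : (1 : ℂ) = 0 := by linear_combination h
    exact one_ne_zero h2)
  have d_QLP : Q ≠ LP := ne_of_apply_one (by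
    rw [hQ1, hLP1]
    intro h
    have h2 : (1 : ℂ) = 0 := by linear_combination -h
    exact one_ne_zero h2)
  have d_LPLQ : LP ≠ LQ := ne_of_apply_one (by
    rw [hLP1, hLQ1]
    intro h
    have h2 : (1 : ℂ) = 0 := by linear_combination h
    exact one_ne_zero h2)
  have d_LLP : L ≠ LP := by
    intro e
    apply hX't
    funext g
    have h1 := congrFun (congrArg Subtype.val e) g
    rw [hL, hLP, Pi.mul_apply] at h1
    have h2 : lam g ≠ 0 := LinChar.linear_ne_zero hlc hl.one g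
    have h3 : lam g * (X' g - 1) = 0 := by linear_combination -h1
    rcases mul_eq_zero.mp h3 with h4 | h4
    · exact absurd h4 h2
    · exact sub_eq_zero.mp h4
  have d_LLQ : L ≠ LQ := by
    intro e
    apply hX''t
    funext g
    have h1 := congrFun (congrArg Subtype.val e) g
    rw [hL, hLQ, Pi.mul_apply] at h1
    have h2 : lam g ≠ 0 := LinChar.linear_ne_zero hlc hl.one g
    have h3 : lam g * (X'' g - 1) = 0 := by linear_combination -h1
    rcases mul_eq_zero.mp h3 with h4 | h4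
    · exact absurd h4 h2
    · exact sub_eq_zero.mp h4
  -- VY1 : `lam` is neither `X'` nor `X''`
  have v1 := S9VY1.main hc f' hf' lam hl
  rw [hrfun, ← hL, classInner_add_left, classInner_sub_left, irr_orthonormal, irr_orthonormal,
    irr_orthonormal, if_neg d_tL] at v1
  have d_PL : P ≠ L := by
    intro e
    rw [if_pos e, if_neg (show Q ≠ L from fun e' => d_PQ (e.trans e'.symm))] at v1
    norm_num at v1
  have d_QL : Q ≠ L := by
    intro e
    rw [if_neg d_PL, if_pos e] at v1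
    norm_num at v1
  -- VY2
  have v2 := S9VY2.main hc f' hf' lam hl
  rw [hlrfun, hrfun, GenChar.classInner_add_right, GenChar.classInner_sub_right] at v2
  simp only [classInner_add_left, classInner_sub_left, irr_orthonormal] at v2
  rw [if_neg d_tL, if_neg d_PL, if_neg d_QL, if_neg d_tLP, if_neg d_QLP, if_neg d_PLQ] at v2
  have d_PLP : P ≠ LP := by
    intro e
    rw [if_pos e] at v2
    split_ifs at v2 <;> norm_num at v2
  have d_tLQ : t₀ ≠ LQ := by
    intro e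
    rw [if_pos e] at v2
    split_ifs at v2 <;> norm_num at v2
  have d_QLQ : Q ≠ LQ := by
    intro e
    rw [if_pos e] at v2
    split_ifs at v2 <;> norm_num at v2
  -- VY3
  have v3 := S9VY3.main hc f' hf' lam hl X'' (IsIrrCharacter.isClassFunction hX'')
  rw [h1lrfun] at v3
  have v3' : classInner (((t₀ : G → ℂ) - (P : G → ℂ) + (Q : G → ℂ)) +
      ((L : G → ℂ) - (LP : G → ℂ) + (LQ : G → ℂ))) (Q : G → ℂ) =
      (conj (X'' y) + 2 * conj (X'' (x * y))) / 3 :=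
    (congrArg (classInner _) hQ).trans v3
  simp only [classInner_add_left, classInner_sub_left, irr_orthonormal] at v3'
  rw [if_neg d_tQ, if_neg d_PQ, if_true, if_neg d_QL.symm, if_neg d_QLP.symm,
    if_neg d_QLQ.symm] at v3'
  -- integrality
  obtain ⟨z, d, hz, -, -⟩ := S9INT3.main X'' (IsIrrCharacter.isCharacter hX'') y b hc.y3 hc.by_
  have hxy3 : (x * y) ^ 3 = 1 := by
    rw [(S9NF.cxy hc).mul_pow, hc.x3, hc.y3, one_mul]
  have hxyinv : (a * b) * (x * y) * (a * b)⁻¹ = (x * y)⁻¹ := by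
    have e1 : (a * b) * (x * y) * (a * b)⁻¹ =
        (a * (b * x * b⁻¹) * a⁻¹) * (a * (b * y * b⁻¹) * a⁻¹) := by group
    have e2 : b * x * b⁻¹ = x := by
      rw [hc.bx]
      group
    have e3 : a * y⁻¹ * a⁻¹ = y⁻¹ := by
      have e4 : a * y⁻¹ = y⁻¹ * a := ((S9NF.cay hc).inv_right).eq
      rw [e4]
      group
    rw [e1, e2, hc.by_, hc.ax, e3, hc.xy, mul_inv_rev]
  obtain ⟨z', d', hz', -, -⟩ :=
    S9INT3.main X'' (IsIrrCharacter.isCharacter hX'') (x * y) (a * b) hxy3 hxyinv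
  rw [hz, hz', map_intCast, map_intCast] at v3'
  have hzz : z + 2 * z' = 3 := by
    have h1 : (z : ℂ) + 2 * (z' : ℂ) = 3 := by linear_combination -3 * v3'
    exact_mod_cast h1
  -- second orthogonality at `y`
  haveI := Wedderburn.finite_irrCharacter G
  haveI := Fintype.ofFinite (IrrCharacter G)
  have so2 := Cfsg.Agent.Lib.Helper3.Orth.second_orthogonality_sum (G := G) y y
  rw [if_pos (IsConj.refl y), S9Grp.card18 hs] at so2
  have so2r : ∑ χ : IrrCharacter G, Complex.normSq ((χ : G → ℂ) y) = 18 := by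
    have h1 : ((∑ χ : IrrCharacter G, Complex.normSq ((χ : G → ℂ) y) : ℝ) : ℂ) = 18 := by
      rw [Complex.ofReal_sum]
      have h2 : ((18 : ℕ) : ℂ) = 18 := by norm_num
      rw [← h2, ← so2]
      exact Finset.sum_congr rfl (fun χ _ => (Complex.mul_conj _).symm)
    exact_mod_cast h1
  have hle : ∑ χ ∈ ({t₀, L, P, Q, LP, LQ} : Finset (IrrCharacter G)),
      Complex.normSq ((χ : G → ℂ) y) ≤ 18 := by
    rw [← so2r]
    exact Finset.sum_le_sum_of_subset_of_nonneg (Finset.subset_univ _)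
      (fun χ _ _ => Complex.normSq_nonneg _)
  rw [Finset.sum_insert (by simp [d_tL, d_tP, d_tQ, d_tLP, d_tLQ]),
    Finset.sum_insert (by simp [d_PL.symm, d_QL.symm, d_LLP, d_LLQ]),
    Finset.sum_insert (by simp [d_PQ, d_PLP, d_PLQ]),
    Finset.sum_insert (by simp [d_QLP, d_QLQ]),
    Finset.sum_insert (by simp [d_LPLQ]), Finset.sum_singleton] at hle
  -- the values at `y`
  have hexc : S9Stmt.exc y f' y = 3 := S9Exc.exc3_piece hs f' hf' y hy (hf'.fx hy)
  have hX'y : X' y = ((z - 2 : ℤ) : ℂ) := by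
    have h1 := hr y
    rw [hexc, hz] at h1
    push_cast
    linear_combination h1
  have e_t : (t₀ : G → ℂ) y = ((1 : ℤ) : ℂ) := by rw [ht₀]; simp [S9Stmt.triv]
  have e_L : (L : G → ℂ) y = ((1 : ℤ) : ℂ) := by rw [hL, hl.vy]; simp
  have e_P : (P : G → ℂ) y = ((z - 2 : ℤ) : ℂ) := by rw [hP, hX'y]
  have e_Q : (Q : G → ℂ) y = ((z : ℤ) : ℂ) := by rw [hQ, hz]
  have e_LP : (LP : G → ℂ) y = ((z - 2 : ℤ) : ℂ) := by
    rw [hLP, Pi.mul_apply, hl.vy, hX'y, one_mul]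
  have e_LQ : (LQ : G → ℂ) y = ((z : ℤ) : ℂ) := by
    rw [hLQ, Pi.mul_apply, hl.vy, hz, one_mul]
  rw [e_t, e_L, e_P, e_Q, e_LP, e_LQ] at hle
  simp only [Complex.normSq_intCast] at hle
  have hle' : (1 : ℤ) * 1 + (1 * 1 + ((z - 2) * (z - 2) + (z * z + ((z - 2) * (z - 2) + z * z)))) ≤ 18 := by
    exact_mod_cast hle
  have hz0 : 0 ≤ z := by nlinarith
  have hz2 : z ≤ 2 := by nlinarith
  have hz1 : z = 1 := by omega
  rw [hz, hz1]
  simp

end Cfsg.Agent.Lib.Helper49.S9VALY
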