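import Mathlib
import Cfsg.Agent.Lib.Helper32.S9Stmt
import Cfsg.Agent.Lib.Helper32.S9NF
import Cfsg.Agent.Lib.Helper32.S9Grp
import Cfsg.Agent.Lib.CT.FrobRec
import Cfsg.Agent.Lib.CT.LinChar
import Cfsg.Agent.Lib.Helper3.Irr

/-! S3805 piece VY3. -/

set_option autoImplicit false

namespace Cfsg.Agent.Lib.Helper49.S9VY3

open Cfsg Cfsg.Agent.Lib.CT
open Cfsg.Agent.Lib.Helper32 Cfsg.Agent.Lib.Helper3.Irr
open scoped ComplexConjugate

universe u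

theorem main : S9Stmt.VY3.{u} := by
  intro G _ _ T N x y a b hc f' hf' lam hl X hX
  classical
  haveI : Fintype (Subgroup.centralizer ({y} : Set G)) := Fintype.ofFinite _
  have hs := hc.swap
  have hlc : IsCharacter G lam := IsIrrCharacter.isCharacter hl.irr
  have hy : y ∈ Subgroup.centralizer ({y} : Set G) := S9Grp.x_mem_cent
  have hc3 : (((f' ⟨y, hy⟩ : ℂˣ) : ℂ)) ^ 3 = 1 := by
    have h1 := congrArg Units.val (S9Grp.f_pow3 hs f' hf' ⟨y, hy⟩)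
    simpa using h1
  have hc1 : (((f' ⟨y, hy⟩ : ℂˣ) : ℂ)) ≠ 1 := fun h => hf'.fx hy (Units.ext h)
  have hcc : (((f' ⟨y, hy⟩ : ℂˣ) : ℂ)) ^ 2 + (((f' ⟨y, hy⟩ : ℂˣ) : ℂ)) + 1 = 0 := by
    have h0 : ((((f' ⟨y, hy⟩ : ℂˣ) : ℂ)) - 1) *
        ((((f' ⟨y, hy⟩ : ℂˣ) : ℂ)) ^ 2 + (((f' ⟨y, hy⟩ : ℂˣ) : ℂ)) + 1) = 0 := by
      have h1 : ((((f' ⟨y, hy⟩ : ℂˣ) : ℂ)) - 1) *
          ((((f' ⟨y, hy⟩ : ℂˣ) : ℂ)) ^ 2 + (((f' ⟨y, hy⟩ : ℂˣ) : ℂ)) + 1) =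
          (((f' ⟨y, hy⟩ : ℂˣ) : ℂ)) ^ 3 - 1 := by ring
      rw [h1, hc3, sub_self]
    rcases mul_eq_zero.1 h0 with h | h
    · exact absurd (sub_eq_zero.1 h) hc1
    · exact h
  obtain ⟨c, hcdef⟩ : ∃ c : ℂ, c = ((f' ⟨y, hy⟩ : ℂˣ) : ℂ) := ⟨_, rfl⟩
  rw [← hcdef] at hc3 hc1 hcc
  have hcl1 : IsClassFunction G (fun g => 1 + lam g) := by
    intro g h
    show 1 + lam (h * g * h⁻¹) = 1 + lam g
    rw [IsIrrCharacter.isClassFunction hl.irr g h]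
  have e1 : (fun g => (1 + lam g) * S9Stmt.exc y f' g) =
      indFun (Subgroup.centralizer ({y} : Set G))
        (fun h => S9Stmt.phi y f' h * (1 + lam h)) := by
    rw [FrobRec.indFun_mul_classFunction _ (S9Stmt.phi y f') (fun g => 1 + lam g) hcl1]
    funext g
    show (1 + lam g) * S9Stmt.exc y f' g = indFun _ (S9Stmt.phi y f') g * (1 + lam g)
    rw [mul_comm]
    rfl
  rw [e1, FrobRec.frobenius_reciprocity _ _ _ hX]
  unfold classInner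
  rw [S9Grp.card18 hs]
  let e : Fin 3 × Fin 3 × Fin 2 → Subgroup.centralizer ({y} : Set G) := fun p =>
    ⟨y ^ (p.1 : ℕ) * x ^ (p.2.1 : ℕ) * a ^ (p.2.2 : ℕ),
      (S9NF.mem_centralizer_x_iff hs _).2 ⟨_, _, _, rfl⟩⟩
  have hinj : Function.Injective e := by
    rintro ⟨i, j, l⟩ ⟨i', j', l'⟩ h
    have h' : y ^ (i : ℕ) * x ^ (j : ℕ) * a ^ (l : ℕ) =
        y ^ (i' : ℕ) * x ^ (j' : ℕ) * a ^ (l' : ℕ) := congrArg Subtype.val h
    have h'' : y ^ (i : ℕ) * x ^ (j : ℕ) * b ^ 0 * a ^ (l : ℕ) =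
        y ^ (i' : ℕ) * x ^ (j' : ℕ) * b ^ 0 * a ^ (l' : ℕ) := by simpa using h'
    obtain ⟨h1, h2, -, h4⟩ := S9NF.nf_unique hs _ _ _ _ _ _ _ _ h''
    simp only [Prod.mk.injEq]
    refine ⟨Fin.ext ?_, Fin.ext ?_, Fin.ext ?_⟩
    · have := i.2; have := i'.2; omega
    · have := j.2; have := j'.2; omega
    · have := l.2; have := l'.2; omega
  have hsurj : Function.Surjective e := by
    rintro ⟨g, hg⟩
    obtain ⟨i, j, l, rfl⟩ := (S9NF.mem_centralizer_x_iff hs g).1 hg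
    refine ⟨(⟨i % 3, Nat.mod_lt _ (by norm_num)⟩, ⟨j % 3, Nat.mod_lt _ (by norm_num)⟩,
      ⟨l % 2, Nat.mod_lt _ (by norm_num)⟩), ?_⟩
    apply Subtype.ext
    show y ^ (i % 3) * x ^ (j % 3) * a ^ (l % 2) = _
    rw [← S9NF.x_pow_mod hs, ← S9NF.y_pow_mod hs, ← S9NF.b_pow_mod hs]
  rw [← Fintype.sum_equiv (Equiv.ofBijective e ⟨hinj, hsurj⟩)
    (fun p => S9Stmt.phi y f' (e p) * (1 + lam (e p)) * conj (X (e p))) _ (fun p => rfl)]
  have hterm : ∀ (i j : Fin 3) (l : Fin 2),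
      S9Stmt.phi y f' (e (i, j, l)) * (1 + lam (e (i, j, l))) * conj (X (e (i, j, l))) =
        (1 - c ^ (i : ℕ)) * (1 + (-1) ^ (l : ℕ)) *
          conj (X (y ^ (i : ℕ) * x ^ (j : ℕ) * a ^ (l : ℕ))) := by
    intro i j l
    have h1 : S9Stmt.phi y f' (e (i, j, l)) = 1 - c ^ (i : ℕ) := by
      unfold S9Stmt.phi
      show 1 - ((f' ⟨y ^ (i : ℕ) * x ^ (j : ℕ) * a ^ (l : ℕ), _⟩ : ℂˣ) : ℂ) = _
      rw [S9NF.f_apply hs f' hf' i j l _ hy, hcdef]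
      simp
    have h2 : lam (e (i, j, l)) = (-1) ^ (l : ℕ) := by
      show lam (y ^ (i : ℕ) * x ^ (j : ℕ) * a ^ (l : ℕ)) = _
      rw [LinChar.linear_mul hlc hl.one, LinChar.linear_mul hlc hl.one,
        LinChar.linear_pow hlc hl.one, LinChar.linear_pow hlc hl.one,
        LinChar.linear_pow hlc hl.one, hl.vy, hl.vx, hl.va]
      simp
    rw [h1, h2]
  simp only [Fintype.sum_prod_type, Fin.sum_univ_three, Fin.sum_univ_two, hterm]
  simp only [Fin.val_zero, Fin.val_one, Fin.val_two, pow_zero, pow_one, mul_one, one_mul]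
  have hXy2 : X (y ^ 2) = X y := by
    rw [← S9NF.y_inv hc, ← hc.by_]
    exact hX y b
  have h2 : y * x ^ 2 = a * (x * y) * a⁻¹ := by
    have e1 : a * (x * y) * a⁻¹ = (a * x * a⁻¹) * (a * y * a⁻¹) := by group
    have e2 : a * y * a⁻¹ = y := by
      rw [hc.ay]
      group
    rw [e1, hc.ax, e2, S9NF.x_inv hc]
    exact ((S9NF.cxy hc).pow_left 2).eq.symm
  have h3 : y ^ 2 * x = b * (x * y) * b⁻¹ := by
    have e1 : b * (x * y) * b⁻¹ = (b * x * b⁻¹) * (b * y * b⁻¹) := by group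
    have e2 : b * x * b⁻¹ = x := by
      rw [hc.bx]
      group
    rw [e1, hc.by_, e2, S9NF.y_inv hc]
    exact ((S9NF.cxy hc).pow_right 2).eq.symm
  have h4 : y ^ 2 * x ^ 2 = (a * b) * (x * y) * (a * b)⁻¹ := by
    have e1 : (a * b) * (x * y) * (a * b)⁻¹ =
        (a * (b * x * b⁻¹) * a⁻¹) * (a * (b * y * b⁻¹) * a⁻¹) := by group
    have e2 : b * x * b⁻¹ = x := by
      rw [hc.bx]
      group
    have e3 : a * y⁻¹ * a⁻¹ = y⁻¹ := by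
      have e4 : a * y⁻¹ = y⁻¹ * a := ((S9NF.cay hc).inv_right).eq
      rw [e4]
      group
    rw [e1, e2, hc.by_, hc.ax, e3, S9NF.x_inv hc, S9NF.y_inv hc]
    exact ((S9NF.cxy hc).pow_pow 2 2).eq.symm
  have hX2 : X (y * x ^ 2) = X (x * y) := by
    rw [h2]
    exact hX (x * y) a
  have hX3 : X (y ^ 2 * x) = X (x * y) := by
    rw [h3]
    exact hX (x * y) b
  have hX4 : X (y ^ 2 * x ^ 2) = X (x * y) := by
    rw [h4]
    exact hX (x * y) (a * b)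
  have hX1 : X (y * x) = X (x * y) := by rw [hc.xy]
  rw [hXy2, hX1, hX2, hX3, hX4]
  push_cast
  linear_combination (-(1 / 9 : ℂ)) * (conj (X y) + 2 * conj (X (x * y))) * hcc

end Cfsg.Agent.Lib.Helper49.S9VY3
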