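import Mathlib
import Cfsg.Prelude.Def_Transfer
import Cfsg.Agent.Lib.Helper49.RankOne
import Cfsg.Agent.Lib.Helper63.PFrattini

set_option autoImplicit false
set_option linter.unusedSectionVars false
set_option linter.unusedVariables false

/-!
Elementwise data of an extraspecial `p`-group (any exponent): central generator `z` of order
`p`, commutators and `p`-th powers in `⟨z⟩`, and centre equal to `⟨z⟩`.  The development follows
the exponent-`p` version of `Lib.Helper30.XPIso`, without the exponent hypothesis.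

Main results: `comHom`, `decomp`, `card_eq`, `xq_sub` (the centralizer of a hyperbolic pair is
again of this kind), `xq_of_extraspecial`, `exists_pow_eq_one` (odd `p`), `exists_sq_eq_one`
(`p = 2`, order more than `8`).
-/

namespace Cfsg.Agent.Lib.Helper49.XQ

/-- The centralizer of two elements, with definitional membership. -/
def cent2 {E : Type*} [Group E] (x y : E) : Subgroup E where
  carrier := {g | x * g = g * x ∧ y * g = g * y}
  one_mem' := by simp
  mul_mem' := by
    rintro a b ⟨ha1, ha2⟩ ⟨hb1, hb2⟩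
    exact ⟨((show Commute x a from ha1).mul_right (show Commute x b from hb1)).eq,
      ((show Commute y a from ha2).mul_right (show Commute y b from hb2)).eq⟩
  inv_mem' := by
    rintro a ⟨ha1, ha2⟩
    exact ⟨((show Commute x a from ha1).inv_right).eq, ((show Commute y a from ha2).inv_right).eq⟩

theorem mem_cent2 {E : Type*} [Group E] {x y g : E} :
    g ∈ cent2 x y ↔ x * g = g * x ∧ y * g = g * y := Iff.rfl

/-- Elementwise data of an extraspecial `p`-group with central generator `z` (the cyclic group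
of order `p` is included as the degenerate case). -/
structure XQ (p : ℕ) (E : Type*) [Group E] (z : E) : Prop where
  z_ne_one : z ≠ 1
  z_pow : z ^ p = 1
  z_comm : ∀ a : E, z * a = a * z
  central : ∀ c : E, (∀ a : E, a * c = c * a) → c ∈ Subgroup.zpowers z
  comm : ∀ a b : E, a * b * a⁻¹ * b⁻¹ ∈ Subgroup.zpowers z
  ppow : ∀ a : E, a ^ p ∈ Subgroup.zpowers z

section basic

variable {p : ℕ} [Fact p.Prime] {E : Type*} [Group E] {z : E}

theorem XQ.order (h : XQ p E z) : orderOf z = p := orderOf_eq_prime h.z_pow h.z_ne_one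

theorem XQ.zpowers_comm (h : XQ p E z) {w : E} (hw : w ∈ Subgroup.zpowers z) (a : E) :
    w * a = a * w := by
  obtain ⟨k, rfl⟩ := Subgroup.mem_zpowers_iff.mp hw
  exact ((show Commute z a from h.z_comm a).zpow_left k).eq

/-- The commutator map `g ↦ [x, g]` as a homomorphism into the centre. -/
def comHom (h : XQ p E z) (x : E) : E →* Subgroup.zpowers z where
  toFun g := ⟨x * g * x⁻¹ * g⁻¹, h.comm x g⟩
  map_one' := Subtype.ext (by simp)
  map_mul' a b := by
    apply Subtype.ext
    show x * (a * b) * x⁻¹ * (a * b)⁻¹ = (x * a * x⁻¹ * a⁻¹) * (x * b * x⁻¹ * b⁻¹)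
    have hb := h.zpowers_comm (h.comm x b) a⁻¹
    calc x * (a * b) * x⁻¹ * (a * b)⁻¹ = x * a * x⁻¹ * ((x * b * x⁻¹ * b⁻¹) * a⁻¹) := by group
      _ = x * a * x⁻¹ * (a⁻¹ * (x * b * x⁻¹ * b⁻¹)) := by rw [hb]
      _ = _ := by group

theorem comHom_coe (h : XQ p E z) (x g : E) :
    ((comHom h x g : Subgroup.zpowers z) : E) = x * g * x⁻¹ * g⁻¹ := rfl

theorem comHom_eq_one_iff (h : XQ p E z) (x g : E) : comHom h x g = 1 ↔ x * g = g * x := by
  rw [Subtype.ext_iff, comHom_coe, Subgroup.coe_one, mul_inv_eq_one, mul_inv_eq_iff_eq_mul]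

theorem comHom_self (h : XQ p E z) (x : E) : comHom h x x = 1 :=
  (comHom_eq_one_iff h x x).mpr rfl

theorem comHom_z (h : XQ p E z) (x : E) : comHom h x z = 1 :=
  (comHom_eq_one_iff h x z).mpr (h.z_comm x).symm

theorem comHom_swap (h : XQ p E z) (x y : E) : comHom h y x = (comHom h x y)⁻¹ := by
  apply Subtype.ext
  rw [Subgroup.coe_inv, comHom_coe, comHom_coe]
  group

/-- The generator of the centre as an element of `zpowers z`. -/
def zc (z : E) : Subgroup.zpowers z := ⟨z, Subgroup.mem_zpowers z⟩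

theorem card_zpowers (h : XQ p E z) : Nat.card (Subgroup.zpowers z) = p := by
  rw [Nat.card_zpowers, h.order]

theorem zc_ne_one (h : XQ p E z) : zc z ≠ 1 := fun h1 => h.z_ne_one (congrArg Subtype.val h1)

theorem exists_zpow (u : Subgroup.zpowers z) : ∃ k : ℤ, u = zc z ^ k := by
  obtain ⟨k, hk⟩ := Subgroup.mem_zpowers_iff.mp u.2
  exact ⟨k, Subtype.ext (by rw [Subgroup.coe_zpow]; exact hk.symm)⟩

theorem exists_pair (h : XQ p E z) (x a : E) (hxa : x * a ≠ a * x) :
    ∃ y : E, comHom h x y = zc z := by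
  have hw : comHom h x a ≠ 1 := fun h1 => hxa ((comHom_eq_one_iff h x a).mp h1)
  have htop := zpowers_eq_top_of_prime_card (card_zpowers h) hw
  have hmem : zc z ∈ Subgroup.zpowers (comHom h x a) := by rw [htop]; exact Subgroup.mem_top _
  obtain ⟨k, hk⟩ := Subgroup.mem_zpowers_iff.mp hmem
  exact ⟨a ^ k, by rw [map_zpow, hk]⟩

/-- A noncentral element `x` has a partner `y` with `y x y⁻¹ x⁻¹ = z`. -/
theorem exists_pair' (h : XQ p E z) (x : E) (hx : x ∉ Subgroup.zpowers z) :
    ∃ y : E, comHom h y x = zc z := by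
  have : ∃ a : E, x * a ≠ a * x := by
    by_contra hcon
    push Not at hcon
    exact hx (h.central x (fun a => (hcon a).symm))
  obtain ⟨a, ha⟩ := this
  obtain ⟨y, hy⟩ := exists_pair h x a ha
  refine ⟨y⁻¹, ?_⟩
  rw [comHom_swap h x y⁻¹, map_inv, hy, inv_inv]

theorem rel_of_pair (h : XQ p E z) (x y : E) (hxy : comHom h x y = zc z) :
    x * y * x⁻¹ = z * y := by
  have h1 : x * y * x⁻¹ * y⁻¹ = z := congrArg Subtype.val hxy
  rw [mul_inv_eq_iff_eq_mul] at h1
  exact h1

/-- The pair of commutator maps. -/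
def theta (h : XQ p E z) (x y : E) : E →* Subgroup.zpowers z × Subgroup.zpowers z :=
  (comHom h x).prod (comHom h y)

theorem theta_apply (h : XQ p E z) (x y g : E) :
    theta h x y g = (comHom h x g, comHom h y g) := rfl

theorem theta_ker (h : XQ p E z) (x y : E) : (theta h x y).ker = cent2 x y := by
  ext g
  rw [MonoidHom.mem_ker, theta_apply, Prod.mk_eq_one, comHom_eq_one_iff, comHom_eq_one_iff,
    mem_cent2]

theorem theta_word (h : XQ p E z) (x y : E) (hxy : comHom h x y = zc z) (s t : ℤ) :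
    theta h x y (y ^ s * x ^ t) = (zc z ^ s, zc z ^ (-t)) := by
  rw [theta_apply]
  refine Prod.ext ?_ ?_
  · show comHom h x (y ^ s * x ^ t) = zc z ^ s
    rw [map_mul, map_zpow, map_zpow, comHom_self, hxy, one_zpow, mul_one]
  · show comHom h y (y ^ s * x ^ t) = zc z ^ (-t)
    rw [map_mul, map_zpow, map_zpow, comHom_self, comHom_swap h x y, hxy, one_zpow, one_mul,
      inv_zpow, zpow_neg]

theorem theta_surj (h : XQ p E z) (x y : E) (hxy : comHom h x y = zc z) :
    Function.Surjective (theta h x y) := by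
  rintro ⟨u, v⟩
  obtain ⟨s, rfl⟩ := exists_zpow u
  obtain ⟨t, rfl⟩ := exists_zpow v
  exact ⟨y ^ s * x ^ (-t), by rw [theta_word h x y hxy, neg_neg]⟩

theorem decomp (h : XQ p E z) (x y : E) (hxy : comHom h x y = zc z) (g : E) :
    ∃ s t : ℤ, (y ^ s * x ^ t)⁻¹ * g ∈ cent2 x y := by
  obtain ⟨s, hs⟩ := exists_zpow (comHom h x g)
  obtain ⟨t, ht⟩ := exists_zpow (comHom h y g)
  refine ⟨s, -t, ?_⟩
  rw [← theta_ker h x y, MonoidHom.mem_ker, map_mul, map_inv, theta_word h x y hxy, neg_neg,
    theta_apply, hs, ht]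
  simp

theorem card_eq [Finite E] (h : XQ p E z) (x y : E) (hxy : comHom h x y = zc z) :
    Nat.card E = p * p * Nat.card (cent2 x y) := by
  have h1 := Subgroup.card_mul_index (theta h x y).ker
  rw [Subgroup.index_ker, MonoidHom.range_eq_top.mpr (theta_surj h x y hxy), Subgroup.card_top,
    Nat.card_prod, card_zpowers h, theta_ker] at h1
  rw [← h1]; ring

theorem xq_z_mem (h : XQ p E z) (x y : E) : z ∈ cent2 x y :=
  mem_cent2.mpr ⟨(h.z_comm x).symm, (h.z_comm y).symm⟩

theorem xq_sub (h : XQ p E z) (x y : E) (hxy : comHom h x y = zc z) :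
    XQ p (cent2 x y) ⟨z, xq_z_mem h x y⟩ := by
  have hsub : ∀ c : cent2 x y, (c : E) ∈ Subgroup.zpowers z →
      c ∈ Subgroup.zpowers (⟨z, xq_z_mem h x y⟩ : cent2 x y) := by
    intro c hc
    obtain ⟨k, hk⟩ := Subgroup.mem_zpowers_iff.mp hc
    exact Subgroup.mem_zpowers_iff.mpr ⟨k, Subtype.ext (by rw [Subgroup.coe_zpow]; exact hk)⟩
  refine ⟨?_, ?_, ?_, ?_, ?_, ?_⟩
  · intro h1; exact h.z_ne_one (congrArg Subtype.val h1)
  · apply Subtype.ext; rw [Subgroup.coe_pow]; exact h.z_pow
  · intro a; exact Subtype.ext (h.z_comm _)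
  · intro c hc
    apply hsub
    apply h.central
    intro g
    obtain ⟨s, t, hst⟩ := decomp h x y hxy g
    have hcx : Commute x (c : E) := (mem_cent2.mp c.2).1
    have hcy : Commute y (c : E) := (mem_cent2.mp c.2).2
    have h1 : Commute (y ^ s * x ^ t) (c : E) := (hcy.zpow_left s).mul_left (hcx.zpow_left t)
    have h2 : (y ^ s * x ^ t)⁻¹ * g * (c : E) = (c : E) * ((y ^ s * x ^ t)⁻¹ * g) :=
      congrArg Subtype.val (hc ⟨_, hst⟩)
    have h3 : g = (y ^ s * x ^ t) * ((y ^ s * x ^ t)⁻¹ * g) := by group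
    rw [h3]
    exact (h1.mul_left (show Commute _ _ from h2)).eq
  · intro a b
    apply hsub
    exact h.comm a b
  · intro a
    apply hsub
    rw [Subgroup.coe_pow]
    exact h.ppow a

/-- Elements of `⟨z⟩` for `p = 2`. -/
theorem mem_zpowers_two (h : XQ 2 E z) {x : E} (hx : x ∈ Subgroup.zpowers z) : x = 1 ∨ x = z := by
  obtain ⟨k, rfl⟩ := Subgroup.mem_zpowers_iff.mp hx
  rcases Int.emod_two_eq_zero_or_one k with h0 | h1
  · left
    obtain ⟨m, rfl⟩ : ∃ m, k = 2 * m := ⟨k / 2, by omega⟩
    rw [zpow_mul, zpow_ofNat, h.z_pow, one_zpow]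
  · right
    obtain ⟨m, rfl⟩ : ∃ m, k = 2 * m + 1 := ⟨k / 2, by omega⟩
    rw [zpow_add, zpow_mul, zpow_ofNat, h.z_pow, one_zpow, one_mul, zpow_one]

/-- For odd `p` the `p`-th power map is a homomorphism into the centre. -/
def powHom (h : XQ p E z) (hp2 : p ≠ 2) : E →* Subgroup.zpowers z where
  toFun g := ⟨g ^ p, h.ppow g⟩
  map_one' := Subtype.ext (by simp)
  map_mul' a b := by
    apply Subtype.ext
    show (a * b) ^ p = a ^ p * b ^ p
    apply Cfsg.Agent.Lib.Helper49.RankOne.mul_pow_prime_of_central (Fact.out) hp2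
    · intro w
      have h1 : a⁻¹ * b * a * b⁻¹ ∈ Subgroup.zpowers z := by
        have := h.comm a⁻¹ b
        rwa [inv_inv] at this
      exact h.zpowers_comm h1 w
    · intro w
      exact h.zpowers_comm (h.ppow b) w

theorem powHom_coe (h : XQ p E z) (hp2 : p ≠ 2) (g : E) :
    ((powHom h hp2 g : Subgroup.zpowers z) : E) = g ^ p := rfl

/-- An extraspecial group of odd exponent type and order more than `p ^ 2` has a noncentral
element of order `p`. -/
theorem exists_pow_eq_one [Finite E] (h : XQ p E z) (hp2 : p ≠ 2) (hcard : p ^ 2 < Nat.card E) :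
    ∃ x : E, x ∉ Subgroup.zpowers z ∧ x ^ p = 1 := by
  by_contra hcon
  push Not at hcon
  have hker : (powHom h hp2).ker ≤ Subgroup.zpowers z := by
    intro x hx
    by_contra hxz
    apply hcon x hxz
    have := congrArg Subtype.val (MonoidHom.mem_ker.mp hx)
    rwa [powHom_coe] at this
  have h1 := Subgroup.card_mul_index (powHom h hp2).ker
  rw [Subgroup.index_ker] at h1
  have h2 : Nat.card (powHom h hp2).ker ≤ p :=
    (Subgroup.card_le_of_le hker).trans (card_zpowers h).le
  have h3 : Nat.card (powHom h hp2).range ≤ p :=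
    (Subgroup.card_le_card_group _).trans (card_zpowers h).le
  have h4 : Nat.card E ≤ p * p := by
    rw [← h1]; exact Nat.mul_le_mul h2 h3
  rw [pow_two] at hcard
  omega

/-- An extraspecial `2`-group of order more than `8` has a noncentral involution. -/
theorem exists_sq_eq_one [Finite E] (h : XQ 2 E z) (hcard : 8 < Nat.card E) :
    ∃ x : E, x ∉ Subgroup.zpowers z ∧ x ^ 2 = 1 := by
  have : Fact (Nat.Prime 2) := ⟨Nat.prime_two⟩
  by_contra hcon
  push Not at hcon
  have hc2 : Nat.card (Subgroup.zpowers z) = 2 := card_zpowers h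
  -- a noncentral element
  have hx : ∃ x : E, x ∉ Subgroup.zpowers z := by
    by_contra hall
    push Not at hall
    have htop : Subgroup.zpowers z = ⊤ := eq_top_iff.mpr (fun g _ => hall g)
    rw [htop, Subgroup.card_top] at hc2
    omega
  obtain ⟨x, hx⟩ := hx
  obtain ⟨y, hy⟩ := exists_pair' h x hx
  have hcard2 := card_eq h y x hy
  have hu : ∃ u : E, u ∈ cent2 y x ∧ u ∉ Subgroup.zpowers z := by
    by_contra hall
    push Not at hall
    have hle : cent2 y x ≤ Subgroup.zpowers z := fun g hg => hall g hg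
    have := Subgroup.card_le_of_le hle
    omega
  obtain ⟨u, hu, huz⟩ := hu
  have hsq : ∀ g : E, g ∉ Subgroup.zpowers z → g ^ 2 = z := by
    intro g hg
    rcases mem_zpowers_two h (h.ppow g) with h1 | h1
    · exact absurd h1 (hcon g hg)
    · exact h1
  have hxu : Commute x u := (mem_cent2.mp hu).2
  have hyu : Commute y u := (mem_cent2.mp hu).1
  have h1 : (x * u) ^ 2 = 1 := by
    rw [hxu.mul_pow, hsq x hx, hsq u huz, ← pow_two, h.z_pow]
  have h2 : x * u ∈ Subgroup.zpowers z := by
    by_contra h3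
    exact hcon _ h3 h1
  have h3 : Commute (x * u) y := h.zpowers_comm h2 y
  have h4 : Commute x y := by
    have h5 : Commute (x * u * u⁻¹) y := h3.mul_left hyu.symm.inv_left
    rwa [mul_inv_cancel_right] at h5
  have h6 : comHom h y x = 1 := (comHom_eq_one_iff h y x).mpr h4.symm.eq
  rw [hy] at h6
  exact zc_ne_one h h6

end basic

/-- Extraction of the elementwise data from an extraspecial group. -/
theorem xq_of_extraspecial {p : ℕ} [Fact p.Prime] {E : Type*} [Group E] [Finite E]
    (hE : Cfsg.IsExtraspecial p E) : ∃ z : E, XQ p E z := by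
  obtain ⟨⟨hpg, hfrat, hcomm⟩, hcard⟩ := hE
  have hp2 : 2 ≤ p := (Fact.out : p.Prime).two_le
  have : Nontrivial (Subgroup.center E) := by
    rw [← Finite.one_lt_card_iff_nontrivial, hcard]; omega
  obtain ⟨z₀, hz₀⟩ := exists_ne (1 : Subgroup.center E)
  have htop := zpowers_eq_top_of_prime_card hcard hz₀
  have hcen : ∀ c : E, c ∈ Subgroup.center E → c ∈ Subgroup.zpowers (z₀ : E) := by
    intro c hc
    have hm : (⟨c, hc⟩ : Subgroup.center E) ∈ Subgroup.zpowers z₀ := by
      rw [htop]; exact Subgroup.mem_top _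
    obtain ⟨k, hk⟩ := Subgroup.mem_zpowers_iff.mp hm
    refine Subgroup.mem_zpowers_iff.mpr ⟨k, ?_⟩
    have := congrArg Subtype.val hk
    rw [Subgroup.coe_zpow] at this
    exact this
  refine ⟨(z₀ : E), ?_, ?_, ?_, ?_, ?_, ?_⟩
  · intro h1; exact hz₀ (Subtype.ext h1)
  · have h1 : z₀ ^ Nat.card (Subgroup.center E) = 1 := pow_card_eq_one'
    rw [hcard] at h1
    have := congrArg Subtype.val h1
    rwa [Subgroup.coe_pow] at this
  · intro a; exact (Subgroup.mem_center_iff.mp z₀.2 a).symm
  · intro c hc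
    exact hcen c (Subgroup.mem_center_iff.mpr hc)
  · intro a b
    apply hcen
    rw [← hcomm, ← commutatorElement_def, commutator_def]
    exact Subgroup.commutator_mem_commutator (Subgroup.mem_top a) (Subgroup.mem_top b)
  · intro a
    apply hcen
    rw [← hfrat]
    exact Cfsg.Agent.Lib.Helper63.PFrattini.pow_mem_frattini hpg a

end Cfsg.Agent.Lib.Helper49.XQ
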